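import Cfsg.Agent.H98.TwoGen.Pairs

/-!
# Two generators of the special unitary groups
-/

set_option autoImplicit false
set_option linter.unusedSectionVars false

namespace Cfsg.Agent.H98.TG

open scoped Matrix
open Cfsg.Agent.H98.Herm Module

variable {F : Type*} [Field F] [Fintype F] {q n m r : ℕ} (hF : Fintype.card F = q ^ 2)
include hF

theorem q_ne_zero : q ≠ 0 := by have := Cfsg.Agent.H3.two_le_q hF; omega

omit hF in
theorem mulVec22 (a b c d x y : F) : !![a, b; c, d] *ᵥ ![x, y] = ![a * x + b * y, c * x + d * y] := by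
  funext j; fin_cases j <;> simp [Matrix.mulVec, dotProduct, Fin.sum_univ_two]

theorem goodRot_one : GoodRot q m (-1 : Matrix (Fin 1) (Fin 1) F) (fun _ => 1) := by
  have hneg : (-1 : F) ^ q = -1 := by rw [← frobQ_apply hF, map_neg, map_one]
  refine ⟨fun i j => ?_, by simp, fun k => ?_, fun _ => ?_, Or.inl ?_⟩
  · fin_cases i; fin_cases j; simp [hneg]
  · refine Submodule.subset_span (Or.inl ?_)
    funext j; fin_cases j; fin_cases k; simp
  · simp [Matrix.neg_mulVec, hneg]
  · simp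

theorem goodRot_swap : GoodRot q 1 !![(0 : F), 1; 1, 0] ![1, 0] := by
  have h0 : (0 : F) ^ q = 0 := zero_pow (q_ne_zero hF)
  refine ⟨fun i j => ?_, by simp [Matrix.det_fin_two], fun k => ?_, fun h => absurd h (by omega), Or.inl ?_⟩
  · fin_cases i <;> fin_cases j <;> simp [h0]
  · fin_cases k
    · refine Submodule.subset_span (Or.inl ?_)
      funext j; fin_cases j <;> simp
    · refine Submodule.subset_span (Or.inr ?_)
      rw [Set.mem_singleton_iff]
      rw [mulVec22]; funext j; fin_cases j <;> simp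
  · simp [h0]

theorem exists_goodRot_two (hm : 2 ≤ m) : ∃ (R : Matrix (Fin 2) (Fin 2) F) (a : Fin 2 → F), GoodRot q m R a := by
  have hq := Cfsg.Agent.H3.two_le_q hF
  have h0 : (0 : F) ^ q = 0 := zero_pow (q_ne_zero hF)
  have hqq : ∀ x : F, (x ^ q) ^ q = x := Cfsg.Agent.H3.pow_q_pow_q hF
  have hnegq : ∀ x : F, (-x) ^ q = -x ^ q := fun x => by rw [← frobQ_apply hF, map_neg, frobQ_apply]
  have haddq : ∀ x y : F, (x + y) ^ q = x ^ q + y ^ q := Cfsg.Agent.H3.add_pow_q hF
  rcases eq_or_ne (2 : F) 0 with h2 | h2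
  · obtain ⟨μ, hμ, ho⟩ := exists_circle hF
    have hμq : μ ^ q = μ⁻¹ := circle_pow hF ho
    have hneg1 : (-1 : F) = 1 := by linear_combination -h2
    have hsq : ∀ k : ℕ, 0 < k → k < q + 1 → μ ^ k ≠ 1 := fun k hk hk' => by
      rw [ne_eq, ← orderOf_dvd_iff_pow_eq_one, ho]
      exact fun h => absurd (Nat.le_of_dvd hk h) (by omega)
    have hμ2 : μ * μ ≠ 1 := by rw [← pow_two]; exact hsq 2 two_pos (by omega)
    have hμ4 : μ * μ * (μ * μ) ≠ 1 := by
      intro h
      rcases lt_or_ge 3 q with h3 | h3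
      · exact hsq 4 (by omega) (by omega) (by linear_combination h)
      · interval_cases q
        · have h5 : μ ^ 3 = 1 := by rw [show 3 = 2 + 1 from rfl, ← ho, pow_orderOf_eq_one]
          exact hsq 1 one_pos (by omega) (by linear_combination h - μ * h5)
        · have h9 : (9 : F) = 0 := by
            have := FiniteField.cast_card_eq_zero F
            rw [hF] at this; norm_num at this; exact this
          have : (1 : F) = 0 := by linear_combination h9 - 4 * h2
          exact one_ne_zero this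
    refine ⟨!![μ, 0; 0, μ⁻¹], ![1, 1], fun i j => ?_, ?_, fun k => ?_, fun _ => ?_, Or.inr ⟨hm, ?_, fun _ => ?_⟩⟩
    · fin_cases i <;> fin_cases j <;> simp [h0, inv_pow, hμq, mul_inv_cancel₀ hμ, inv_mul_cancel₀ hμ]
    · simp [Matrix.det_fin_two, hμ, hneg1]
    · set S := Submodule.span F ({![1, 1], !![μ, 0; 0, μ⁻¹] *ᵥ ![1, 1]} : Set (Fin 2 → F))
      have hd : μ - μ⁻¹ ≠ 0 := by
        rw [sub_ne_zero]; intro h
        exact hμ2 (by nth_rewrite 2 [h]; exact mul_inv_cancel₀ hμ)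
      have h1 : (![1, 1] : Fin 2 → F) ∈ S := Submodule.subset_span (Or.inl rfl)
      have h3 : !![μ, 0; 0, μ⁻¹] *ᵥ ![1, 1] ∈ S := Submodule.subset_span (Or.inr rfl)
      fin_cases k
      · have := S.smul_mem (μ - μ⁻¹)⁻¹ (S.sub_mem h3 (S.smul_mem μ⁻¹ h1))
        convert this using 1
        rw [mulVec22]; funext j; fin_cases j <;> simp [hd]
      · have := S.smul_mem (μ - μ⁻¹)⁻¹ (S.sub_mem (S.smul_mem μ h1) h3)
        convert this using 1
        rw [mulVec22]; funext j; fin_cases j <;> simp [hd]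
    · rw [mulVec22]; simp [Fin.sum_univ_two, inv_pow, hμq]
      intro h
      exact hμ2 (by linear_combination μ * h - mul_inv_cancel₀ hμ - h2)
    · simp [Fin.sum_univ_two]; linear_combination h2
    · rw [pow_two, ← Matrix.mulVec_mulVec, mulVec22, mulVec22]; simp [Fin.sum_univ_two, Matrix.mul_apply, mul_pow, inv_pow, hμq]
      intro h
      exact hμ4 (by
        have e1 := mul_inv_cancel₀ hμ
        linear_combination (μ * μ) * h - (μ * μ⁻¹ + 1) * e1 - h2)
  · obtain ⟨α, hα⟩ := exists_norm (isUnitary_std (n := 1) hF) (a := (-1 : F)) (by rw [map_neg, map_one])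
    obtain ⟨β, hβ⟩ := exists_norm (isUnitary_std (n := 1) hF) (a := (2 : F)) (by rw [map_ofNat])
    rw [frobQ_apply] at hα hβ
    have hαq : α ^ q ≠ 0 := fun h => by rw [h, mul_zero] at hα; simp at hα
    have hβq : β ^ q ≠ 0 := fun h => h2 (by rw [← hβ, h, mul_zero])
    refine ⟨!![α, β; β ^ q, -α ^ q], ![1, 0], fun i j => ?_, ?_, fun k => ?_, fun _ => ?_, Or.inl ?_⟩
    · fin_cases i <;> fin_cases j <;> simp [hnegq, hqq]
      · linear_combination hα + hβ
      · ring
      · ring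
      · linear_combination hα + hβ
    · simp [Matrix.det_fin_two]; linear_combination -hα - hβ
    · set S := Submodule.span F ({![1, 0], !![α, β; β ^ q, -α ^ q] *ᵥ ![1, 0]} : Set (Fin 2 → F))
      have h1 : (![1, 0] : Fin 2 → F) ∈ S := Submodule.subset_span (Or.inl rfl)
      have h3 : !![α, β; β ^ q, -α ^ q] *ᵥ ![1, 0] ∈ S := Submodule.subset_span (Or.inr rfl)
      fin_cases k
      · convert h1 using 1; funext j; fin_cases j <;> simp
      · have := S.smul_mem (β ^ q)⁻¹ (S.sub_mem h3 (S.smul_mem α h1))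
        convert this using 1
        rw [mulVec22]; funext j; fin_cases j <;> simp [hβq]
    · rw [mulVec22]; simpa [Fin.sum_univ_two, h0] using hαq
    · simp [h0]

variable {b : Basis (Fin (2 * m) ⊕ Fin r) F (Fin n → F)}

omit hF in
theorem inr_eq_dvec (k : Fin r) : b (Sum.inr k) = dvec b (Pi.single k 1) := by
  simp [dvec, Pi.single_apply, ite_smul]

omit hF in
theorem inv_mulVec_eigen {h : GL (Fin n) F} {v : Fin n → F} {c : F} (hc : c ≠ 0)
    (hv : (h : Matrix (Fin n) (Fin n) F) *ᵥ v = c • v) :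
    ((h⁻¹ : GL (Fin n) F) : Matrix (Fin n) (Fin n) F) *ᵥ v = c⁻¹ • v := by
  have := congrArg (fun y => ((h⁻¹ : GL (Fin n) F) : Matrix (Fin n) (Fin n) F) *ᵥ y) hv
  simp only [Matrix.mulVec_mulVec, ← Units.val_mul, inv_mul_cancel, Units.val_one, Matrix.one_mulVec,
    Matrix.mulVec_smul] at this
  conv_rhs => rw [this, smul_smul, inv_mul_cancel₀ hc, one_smul]

omit hF in
theorem pow_mulVec_eigen {h : GL (Fin n) F} {v : Fin n → F} {c : F}
    (hv : (h : Matrix (Fin n) (Fin n) F) *ᵥ v = c • v) (k : ℕ) :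
    ((h ^ k : GL (Fin n) F) : Matrix (Fin n) (Fin n) F) *ᵥ v = c ^ k • v := by
  induction k with
  | zero => simp
  | succ k ih => rw [pow_succ, Units.val_mul, ← Matrix.mulVec_mulVec, hv, Matrix.mulVec_smul, ih, smul_smul,
      pow_succ']

/-- The pair in dimensions five and six. -/
theorem pair_mid (b : Basis (Fin (2 * 2) ⊕ Fin r) F (Fin n → F)) (hb : IsFrameBasis q b) (hn : 4 ≤ n)
    {R : Matrix (Fin r) (Fin r) F} {a : Fin r → F} (hR : GoodRot q 2 R a) :
    ∃ A ∈ SUn n F q, ∃ B ∈ SUn n F q, SUn n F q ≤ Subgroup.closure {A, B} := by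
  obtain ⟨ζ, hζ, ho⟩ := exists_circle hF
  have hζq := circle_pow hF ho
  have hq := Cfsg.Agent.H3.two_le_q hF
  obtain ⟨w, hw, hwP, hwD⟩ := exists_rot hF hb (by omega) R hR.1 hR.2.1
  obtain ⟨h, hh, hhP, hhD⟩ := exists_sym_torus hF hb (fun k => if k = 0 then ζ else ζ⁻¹)
    (fun k => by split_ifs <;> simp [hζ]) (fun _ => 1) (fun _ => by simp)
    (by simp [Finset.prod_range_succ, hζ])
  have hwh : h * w * h = w := by
    refine gl_ext_basis (b := b) fun i => ?_
    simp only [Units.val_mul, ← Matrix.mulVec_mulVec]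
    rcases i with i | k
    · rw [hhP, Matrix.mulVec_smul, hwP, Matrix.mulVec_smul, hhP, smul_smul]
      conv_rhs => rw [← one_smul F (b (Sum.inl (finRotate (2 * 2) i)))]
      congr 1
      fin_cases i <;> simp [finRotate_val, hζq, inv_pow, hζ]
    · rw [hhD, one_smul, inr_eq_dvec, hwD, torus_dvec_one hhD]
  have hP : (h : Matrix (Fin n) (Fin n) F) *ᵥ b (Sum.inl ⟨0, by omega⟩) = ζ • b (Sum.inl ⟨0, by omega⟩) := by
    rw [hhP]; simp
  have hz : (h : Matrix (Fin n) (Fin n) F) *ᵥ dvec b a = (1 : F) • dvec b a := by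
    rw [one_smul, torus_dvec_one hhD]
  refine twisted hF hb (by omega) (by omega) (by omega) hR hw hh hwP hwD (Subgroup.mem_zpowers h) hwh hζ
    (inv_mulVec_eigen hζ hP) (inv_mulVec_eigen one_ne_zero hz) hP hz ?_ ?_ (fun h => absurd h (by omega))
  · rw [inv_one, mul_one, inv_pow, hζq, inv_inv]
    intro h1; rw [h1, orderOf_one] at ho; omega
  · rw [mul_one, Nat.Coprime.orderOf_pow, ho]
    · omega
    · rw [ho]; simp

/-- The pair in dimension four. -/
theorem pair_four (b : Basis (Fin (2 * 1) ⊕ Fin 2) F (Fin n → F)) (hb : IsFrameBasis q b) (hn : 4 ≤ n) :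
    ∃ A ∈ SUn n F q, ∃ B ∈ SUn n F q, SUn n F q ≤ Subgroup.closure {A, B} := by
  obtain ⟨ζ, hζ, ho⟩ := exists_circle hF
  have hζq := circle_pow hF ho
  have hq := Cfsg.Agent.H3.two_le_q hF
  have hR := goodRot_swap hF
  obtain ⟨w, hw, hwP, hwD⟩ := exists_rot hF hb (by omega) _ hR.1 hR.2.1
  obtain ⟨h, hh, hhP, hhD⟩ := exists_sym_torus hF hb (fun _ => (1 : F))
    (fun _ => one_ne_zero) ![ζ, ζ⁻¹] (fun k => by fin_cases k <;> simp [hζq, inv_pow, hζ])
    (by simp [Fin.prod_univ_two, hζ])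
  have hone : ∀ i : Fin (2 * 1), (h : Matrix (Fin n) (Fin n) F) *ᵥ b (Sum.inl i) = b (Sum.inl i) := by
    intro i; rw [hhP]; simp
  have hwh : h * w * h = w := by
    refine gl_ext_basis (b := b) fun i => ?_
    simp only [Units.val_mul, ← Matrix.mulVec_mulVec]
    rcases i with i | k
    · rw [hone, hwP, hone]
    · rw [inr_eq_dvec, torus_dvec hhD, hwD, hwD, torus_dvec hhD]
      congr 1
      funext j
      fin_cases k <;> fin_cases j <;> simp [Matrix.mulVec, dotProduct, Fin.sum_univ_two, hζ]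
  have hP : (h : Matrix (Fin n) (Fin n) F) *ᵥ b (Sum.inl ⟨0, by omega⟩) =
      (1 : F) • b (Sum.inl ⟨0, by omega⟩) := by
    rw [hone, one_smul]
  have hz : (h : Matrix (Fin n) (Fin n) F) *ᵥ dvec b ![1, 0] = ζ • dvec b ![1, 0] := by
    rw [torus_dvec hhD]; simp [dvec, smul_smul]
  refine twisted hF hb (by omega) (by omega) (by omega) hR hw hh hwP hwD (Subgroup.mem_zpowers h) hwh
    one_ne_zero (inv_mulVec_eigen one_ne_zero hP) (inv_mulVec_eigen hζ hz) hP hz ?_ ?_ (fun _ => Or.inr ?_)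
  · rw [inv_one, one_pow, one_mul, ne_eq, inv_eq_one]
    intro h1; rw [h1, orderOf_one] at ho; omega
  · rw [one_pow, one_mul, ho]; omega
  · rw [mulVec22]; simp [Fin.sum_univ_two, zero_pow (q_ne_zero hF)]

/-- The pair in dimension three. -/
theorem pair_three (b : Basis (Fin (2 * 1) ⊕ Fin 1) F (Fin n → F)) (hb : IsFrameBasis q b) (hn : 2 ≤ n)
    (hq3 : 3 ≤ q) :
    ∃ A ∈ SUn n F q, ∃ B ∈ SUn n F q, SUn n F q ≤ Subgroup.closure {A, B} := by
  obtain ⟨ω, hω, ho⟩ := exists_gen hF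
  have hqq : ∀ x : F, (x ^ q) ^ q = x := Cfsg.Agent.H3.pow_q_pow_q hF
  have hq2 : 9 ≤ q ^ 2 := le_trans (by norm_num) (Nat.pow_le_pow_left hq3 2)
  have hfix : ω ^ (q ^ 2 - 1) = 1 := by rw [← ho]; exact pow_orderOf_eq_one ω
  set s := ω ^ (q - 1) with hs
  have hsmul : s * ω = ω ^ q := by rw [hs, ← pow_succ]; congr 1; omega
  have hsq : s * s ^ q = 1 := by
    rw [← pow_succ', hs, ← pow_mul, ← hfix]
    congr 1
    rw [mul_comm, ← Nat.sq_sub_sq, one_pow]
  have hs0 : s ≠ 0 := pow_ne_zero _ hω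
  have hR := goodRot_one (m := 1) hF
  obtain ⟨w, hw, hwP, hwD⟩ := exists_rot hF hb (by omega) _ hR.1 hR.2.1
  obtain ⟨h, hh, hhP, hhD⟩ := exists_sym_torus hF hb (fun _ => ω)
    (fun _ => hω) (fun _ => s) (fun _ => hsq)
    (by
      simp only [Finset.prod_range_one, Fin.prod_univ_one]
      rw [mul_right_comm, mul_comm ω s, hsmul, mul_inv_cancel₀ (pow_ne_zero _ hω)])
  have hz : ∀ a : Fin 1 → F, (h : Matrix (Fin n) (Fin n) F) *ᵥ dvec b a = s • dvec b a := by
    intro a; rw [torus_dvec hhD]; simp [dvec, smul_smul]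
  have hwh : h ^ q * w * h = w := by
    refine gl_ext_basis (b := b) fun i => ?_
    simp only [Units.val_mul, ← Matrix.mulVec_mulVec]
    rcases i with i | k
    · rw [hhP, Matrix.mulVec_smul, hwP, Matrix.mulVec_smul, pow_mulVec_eigen (hhP _), smul_smul]
      conv_rhs => rw [← one_smul F (b (Sum.inl (finRotate (2 * 1) i)))]
      congr 1
      fin_cases i <;> simp [finRotate_val, hqq, inv_pow, hω]
    · rw [inr_eq_dvec, hz, Matrix.mulVec_smul, hwD, Matrix.mulVec_smul, pow_mulVec_eigen (hz _), smul_smul,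
        hsq, one_smul]
  have hP : (h : Matrix (Fin n) (Fin n) F) *ᵥ b (Sum.inl ⟨0, by omega⟩) = ω • b (Sum.inl ⟨0, by omega⟩) := by
    rw [hhP]; simp
  refine twisted hF hb hn (by rintro ⟨-, h⟩; omega) (by omega) hR hw hh hwP hwD
    (pow_mem (Subgroup.mem_zpowers h) q) hwh hω
    (inv_mulVec_eigen (pow_ne_zero _ hω) (pow_mulVec_eigen hP q))
    (inv_mulVec_eigen (pow_ne_zero _ hs0) (pow_mulVec_eigen (hz _) q)) hP (hz _) ?_ ?_ (fun _ => Or.inl ?_)
  · rw [inv_pow, hqq, ← eq_inv_of_mul_eq_one_left hsq]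
    intro h1
    have h2 : s = ω := by
      have := congrArg (ω * ·) h1
      simpa [← mul_assoc, mul_inv_cancel₀ hω] using this
    have h3 : ω ^ (q - 2) = 1 := by
      have e : s = ω ^ (q - 2) * ω := by rw [hs, ← pow_succ]; congr 1; omega
      rw [h2] at e
      exact (mul_eq_right₀ hω).mp e.symm
    rw [← orderOf_dvd_iff_pow_eq_one, ho] at h3
    have := Nat.le_of_dvd (by omega) h3
    have : q * 3 ≤ q ^ 2 := by rw [pow_two]; exact Nat.mul_le_mul_left _ hq3
    omega
  · have e : ω ^ q * s = ω ^ (2 * q - 1) := by rw [hs, ← pow_add]; congr 1; omega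
    rw [e]
    by_contra hlt
    push Not at hlt
    have hpos : 0 < orderOf (ω ^ (2 * q - 1)) := orderOf_pos_iff.mpr
      (isOfFinOrder_iff_pow_eq_one.mpr ⟨q ^ 2 - 1, by omega, by rw [← pow_mul, mul_comm, pow_mul, hfix, one_pow]⟩)
    have h1 := pow_orderOf_eq_one (ω ^ (2 * q - 1))
    rw [← pow_mul, ← orderOf_dvd_iff_pow_eq_one, ho] at h1
    generalize orderOf (ω ^ (2 * q - 1)) = j at hpos hlt h1
    have h2 : q ^ 2 - 1 ∣ 3 * j := by
      have h4 : (2 * q - 1) * (2 * q + 1) + 0 = 4 * (q ^ 2 - 1) + 3 := by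
        have e1 : (2 * q) ^ 2 = 4 * q ^ 2 := by ring
        have e2 := Nat.sq_sub_sq (2 * q) 1
        rw [mul_comm, ← e2, e1]; omega
      have h5 : q ^ 2 - 1 ∣ 4 * (q ^ 2 - 1) * j + 3 * j := by
        rw [← add_mul, ← h4, add_zero, mul_comm (2 * q - 1), mul_assoc]
        exact dvd_mul_of_dvd_right h1 _
      exact (Nat.dvd_add_right ((dvd_mul_left _ 4).mul_right j)).mp h5
    have h6 := Nat.le_of_dvd (by omega) h2
    have : q * 3 ≤ q ^ 2 := by rw [pow_two]; exact Nat.mul_le_mul_left _ hq3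
    omega
  · rw [Matrix.neg_mulVec, Matrix.one_mulVec]
    exact Submodule.neg_mem _ (Submodule.mem_span_singleton_self _)

/-- The special unitary group has two generators. -/
theorem exists_pair (hn : 3 ≤ n) (h32 : n = 3 → q ≠ 2) :
    ∃ A ∈ SUn n F q, ∃ B ∈ SUn n F q, SUn n F q ≤ Subgroup.closure {A, B} := by
  have hq := Cfsg.Agent.H3.two_le_q hF
  rcases Nat.even_or_odd n with ⟨k, hk⟩ | ⟨k, hk⟩
  · obtain ⟨b, hb⟩ := exists_frameBasis (m := k - 1) (r := 2) hF (n := n) (by omega)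
    rcases le_or_gt 3 (k - 1) with hm | hm
    · obtain ⟨R, a, hR⟩ := exists_goodRot_two (m := k - 1) hF (by omega)
      exact pair_large hF hb (by omega) (by omega) hm hR
    · obtain rfl | rfl : k = 2 ∨ k = 3 := by omega
      · exact pair_four hF b hb (by omega)
      · obtain ⟨R, a, hR⟩ := exists_goodRot_two (m := 2) hF le_rfl
        exact pair_mid hF b hb (by omega) hR
  · obtain ⟨b, hb⟩ := exists_frameBasis (m := k) (r := 1) hF (n := n) (by omega)
    rcases le_or_gt 3 k with hm | hm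
    · exact pair_large hF hb (by omega) (by omega) hm (goodRot_one hF)
    · obtain rfl | rfl : k = 1 ∨ k = 2 := by omega
      · exact pair_three hF b hb (by omega) (by have := h32 (by omega); omega)
      · exact pair_mid hF b hb (by omega) (goodRot_one hF)

end Cfsg.Agent.H98.TG
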