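import Cfsg.Agent.H98.TwoGen.Root
import Cfsg.Agent.H98.HermStd

/-!
# Generating a unitary group from one rotated frame

A subgroup containing a rotation `w` of a hyperbolic frame and the root elements of one line contains all root
transvections.
-/

set_option autoImplicit false
set_option linter.unusedSectionVars false

namespace Cfsg.Agent.H98.TG

open scoped Matrix
open Cfsg.Agent.H98.Herm

variable {ι : Type} [Fintype ι] [DecidableEq ι] {F : Type*} [Field F] [Finite F]
variable {σ : F ≃+* F} {f : (ι → F) → (ι → F) → F} (hf : Cfsg.Geo.IsUnitaryForm σ f)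
variable {M : Subgroup (GL ι F)}

include hf in
/-- All isotropic vectors are centres as soon as the root group of one of them is contained. -/
theorem centres_all (hM : IsoOn f M) {e : ι → F} (hperp : ∀ z, f z e = 0 → InA hf M e z)
    (hc : e ∈ centres hf M) {g : GL ι F} (hg : g ∈ M) (hge : f ((g : Matrix ι ι F) *ᵥ e) e = 1)
    (v : ι → F) (hv : f v v = 0) : v ∈ centres hf M := by
  obtain ⟨he, -⟩ := id hc
  have hA : ∀ v : ι → F, f v v = 0 → f v e ≠ 0 → v ∈ centres hf M := by
    intro v hv hve
    set u := (g : Matrix ι ι F) *ᵥ e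
    set v' := (f v e)⁻¹ • v with hv'
    have hue : f e u = 1 := by rw [hf.herm, hge, map_one]
    have hv'e : f v' e = 1 := by rw [hv', hf.smul_left, inv_mul_cancel₀ hve]
    have hv'v' : f v' v' = 0 := by rw [hv', hf.smul_left, smul_right hf, hv, mul_zero, mul_zero]
    have hze : f (v' - u) e = 0 := by rw [sub_left hf, hv'e, hge, sub_self]
    have hγ : f u v' + σ (f u v') + f (v' - u) (v' - u) = 0 := by
      simp only [sub_left hf, sub_right hf, sigma_apply hf, hv'v', show f u u = 0 from (hM g hg e e).trans he]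
      ring
    have h1 := centres_conj hf hM (inA_exact hf (hperp _ hze) hc hγ he hze) (centres_conj hf hM hg hc)
    rw [eich_mulVec, hge, one_smul, sub_right hf, show f u u = 0 from (hM g hg e e).trans he, sub_zero] at h1
    have h2 := centres_smul hf h1 (f v e)
    convert h2 using 1
    rw [show u - f u v' • e + (v' - u + f u v' • e) = v' by module, hv', smul_smul, mul_inv_cancel₀ hve,
      one_smul]
  rcases eq_or_ne v 0 with rfl | hv0
  · simpa using centres_smul hf hc 0
  have he0 : e ≠ 0 := fun h => by rw [h, zero_right hf] at hge; exact zero_ne_one hge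
  obtain ⟨u, huu, hvu, heu⟩ := exists_common hf hv0 he0 hv he
  have hue : f u e ≠ 0 := fun h => heu ((eq_zero_comm hf).mp h)
  obtain ⟨d, hd0, hd⟩ := exists_skew hf
  obtain ⟨_, hT⟩ := hA u huu hue
  by_cases hve : f v e = 0
  · have h1 : f ((uT hf huu d : Matrix ι ι F) *ᵥ v) e ≠ 0 := by
      rw [uT_mulVec, hf.add_left, hf.smul_left, hve, zero_add]
      exact mul_ne_zero (mul_ne_zero hd0 hvu) hue
    have h2 := hA _ (by rw [hM _ (hT d hd), hv]) h1
    have h3 := centres_conj hf hM (M.inv_mem (hT d hd)) h2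
    rwa [Matrix.mulVec_mulVec, ← Units.val_mul, inv_mul_cancel, Units.val_one, Matrix.one_mulVec] at h3
  · exact hA v hv hve

/-- The orbit of a vector under a rotation. -/
def orb (w : GL ι F) (v : ι → F) (k : ℕ) : ι → F := ((w ^ k : GL ι F) : Matrix ι ι F) *ᵥ v

theorem orb_zero (w : GL ι F) (v : ι → F) : orb w v 0 = v := by simp [orb]

theorem orb_add (w : GL ι F) (v : ι → F) (i j : ℕ) :
    ((w ^ i : GL ι F) : Matrix ι ι F) *ᵥ orb w v j = orb w v (i + j) := by
  rw [orb, orb, Matrix.mulVec_mulVec, ← Units.val_mul, ← pow_add]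

/-- A hyperbolic frame of `2m` vectors permuted cyclically, with a rest spanned by two vectors. -/
structure Frame (f : (ι → F) → (ι → F) → F) (m : ℕ) (w : GL ι F) (P z : ι → F) : Prop where
  pos : 0 < m
  per : orb w P (2 * m) = P
  hPP : ∀ i j, f (orb w P i) (orb w P j) = if (i + m) % (2 * m) = j % (2 * m) then 1 else 0
  hPZ : ∀ i j, f (orb w P i) (orb w z j) = 0
  span : ∀ y, f y P = 0 →
    y ∈ Submodule.span F ((orb w P '' {j | j < 2 * m ∧ j ≠ m}) ∪ {z, orb w z 1})

theorem mod_eq_iff {m a b : ℕ} (ha : a < 4 * m) (hb : b < 4 * m) :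
    a % (2 * m) = b % (2 * m) ↔ a = b ∨ a = b + 2 * m ∨ b = a + 2 * m := by
  have hc : ∀ c, c < 4 * m → (c < 2 * m ∧ c % (2 * m) = c) ∨ (2 * m ≤ c ∧ c % (2 * m) = c - 2 * m) := by
    intro c hc
    rcases lt_or_ge c (2 * m) with h | h
    · exact Or.inl ⟨h, Nat.mod_eq_of_lt h⟩
    · refine Or.inr ⟨h, ?_⟩
      rw [Nat.mod_eq_sub_mod h, Nat.mod_eq_of_lt (by omega)]
  rcases hc a ha with ⟨h1, e1⟩ | ⟨h1, e1⟩ <;> rcases hc b hb with ⟨h2, e2⟩ | ⟨h2, e2⟩ <;> rw [e1, e2] <;> omega

variable {m : ℕ} {w : GL ι F} {P z : ι → F}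

namespace Frame

variable (H : Frame f m w P z)
include H

theorem per_add (k : ℕ) : orb w P (k + 2 * m) = orb w P k := by
  rw [← orb_add, H.per]; rfl

theorem pp_one {i j : ℕ} (hi : i < 3 * m) (hj : j < 4 * m)
    (h : i + m = j ∨ i + m = j + 2 * m ∨ j = i + m + 2 * m) : f (orb w P i) (orb w P j) = 1 := by
  rw [H.hPP, if_pos ((mod_eq_iff (by omega) hj).mpr h)]

theorem pp_zero {i j : ℕ} (hi : i < 3 * m) (hj : j < 4 * m)
    (h : i + m ≠ j ∧ i + m ≠ j + 2 * m ∧ j ≠ i + m + 2 * m) : f (orb w P i) (orb w P j) = 0 := by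
  rw [H.hPP, if_neg (by rw [mod_eq_iff (by omega) hj]; omega)]

theorem iso_P (i : ℕ) : f (orb w P i) (orb w P i) = 0 := by
  rw [H.hPP, if_neg]
  intro h
  have hpos := H.pos
  have h1 : i + m ≡ i + 0 [MOD 2 * m] := h
  have h2 := Nat.ModEq.add_left_cancel' i h1
  have h3 := Nat.le_of_dvd hpos (Nat.modEq_zero_iff_dvd.mp h2)
  omega

include hf

theorem zp (i j : ℕ) : f (orb w z j) (orb w P i) = 0 := (eq_zero_comm hf).mp (H.hPZ i j)

variable (hM : IsoOn f M) (hw : w ∈ M) (hst : ∀ c : F, InA hf M P (c • z))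
  (hκ : 2 ≤ m → f z (orb w z 1) ≠ 0)
include hM hw

theorem transA {i j : ℕ} {c : F} (h : InA hf M P (c • orb w P j)) :
    InA hf M (orb w P i) (c • orb w P (i + j)) := by
  have h1 := inA_conj hf hM (M.pow_mem hw i) h
  rwa [Matrix.mulVec_smul, orb_add] at h1

theorem transX {i j : ℕ} {c : F} (h : InX hf M P (c • orb w P j)) :
    InX hf M (orb w P i) (c • orb w P (i + j)) := by
  have h1 := inX_conj hf hM (M.pow_mem hw i) h
  rwa [Matrix.mulVec_smul, orb_add] at h1

include hst

theorem transZ (i : ℕ) (c : F) : InA hf M (orb w P i) (c • orb w z i) := by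
  have h1 := inA_conj hf hM (M.pow_mem hw i) (hst c)
  rwa [Matrix.mulVec_smul] at h1

theorem commZ {j : ℕ} (hj : j < 2 * m) (hjm : j ≠ m) (hne : f z (orb w z j) ≠ 0) (c : F) :
    InX hf M P (c • orb w P j) := by
  have hz := transZ hf H hM hw hst j 1
  rw [one_smul] at hz
  have hpj : f (orb w P j) P = 0 := by
    conv_lhs => arg 2; rw [← orb_zero w P]
    exact H.pp_zero (by omega) (by omega) (by omega)
  have h1 := inX_commut hf hM (hst (c / f z (orb w z j))) hz hpj
    (by have := H.hPZ 0 j; rwa [orb_zero] at this)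
    (by have := zp hf H j 0; rw [orb_zero] at this; rw [hf.smul_left, this, mul_zero])
  rwa [hf.smul_left, div_mul_cancel₀ _ hne] at h1

include hκ

theorem off_one (hm : 2 ≤ m) (c : F) : InX hf M P (c • orb w P 1) :=
  commZ hf H hM hw hst (by omega) (by omega) (hκ hm) c

theorem off_neg (hm : 2 ≤ m) (c : F) : InX hf M P (c • orb w P (2 * m - 1)) := by
  rcases eq_or_ne c 0 with rfl | hc
  · rw [zero_smul]
    have hP : f P P = 0 := by have := H.iso_P 0; rwa [orb_zero] at this
    refine ⟨zero_left hf 0, hP, zero_left hf P, ?_⟩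
    rw [eich_one hf hP]; exact M.one_mem
  have h1 := transX hf H hM hw (i := 2 * m - 1) (j := 1) (off_one hf H hM hw hst hκ hm (-σ c))
  rw [show 2 * m - 1 + 1 = 2 * m by omega, H.per] at h1
  have h2 := inX_smul_centre hf (-σ c) (by simpa using hc) (inX_symm hf (H.iso_P _) h1)
  rwa [map_neg, hf.involutive, neg_smul_neg] at h2

theorem full (hN : f z z ≠ 0 ∨ 2 ≤ m ∧ (3 ≤ m → f z (orb w z 2) ≠ 0)) (i : ℕ) :
    orb w P i ∈ centres hf M := by
  refine centres_conj hf hM (M.pow_mem hw i) ?_
  rcases hN with hN | ⟨hm, hN⟩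
  · have h := hst 1
    rw [one_smul] at h
    exact centre_of_pair hf h hst hN
  have hone := fun c => (off_one hf H hM hw hst hκ hm c).toInA hf
  have h1 := hone 1
  rw [one_smul] at h1
  rcases eq_or_lt_of_le hm with rfl | hm'
  · refine centre_of_pair hf h1 (fun c => (off_neg hf H hM hw hst hκ le_rfl c).toInA hf) ?_
    rw [H.pp_one (by omega) (by omega) (by omega)]; exact one_ne_zero
  have htwo := fun c => commZ hf H hM hw hst (j := 2) (by omega) (by omega) (hN hm') c
  refine centre_of_pair hf (z' := orb w P (m + 1)) h1 (fun c => ?_)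
    (by rw [H.pp_one (by omega) (by omega) (by omega)]; exact one_ne_zero)
  have hz := transA hf H hM hw (i := m + 1) (j := 1) (hone 1)
  rw [one_smul] at hz
  have h3 := inX_commut hf hM ((htwo c).toInA hf) hz
    (by conv_lhs => arg 2; rw [← orb_zero w P]
        exact H.pp_zero (by omega) (by omega) (by omega))
    (by conv_lhs => arg 1; rw [← orb_zero w P]
        exact H.pp_zero (by omega) (by omega) (by omega))
    (by rw [hf.smul_left, H.pp_zero (by omega) (by omega) (by omega), mul_zero])
  rw [hf.smul_left, H.pp_one (by omega) (by omega) (by omega), mul_one] at h3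
  exact h3.toInA hf

variable (hN : f z z ≠ 0 ∨ 2 ≤ m ∧ (3 ≤ m → f z (orb w z 2) ≠ 0))
include hN

theorem flip {j : ℕ} (hj : j < 2 * m) (hj0 : j ≠ 0) (hjm : j ≠ m)
    (h : ∀ c : F, InA hf M P (c • orb w P j)) (c : F) : InA hf M P (c • orb w P (j + m)) :=
  inA_flip hf hM h (full hf H hM hw hst hκ hN _)
    (by conv_lhs => arg 2; rw [← orb_zero w P]
        exact H.pp_zero (by omega) (by omega) (by omega))
    (by rw [H.pp_one (by omega) (by omega) (by omega)]; exact one_ne_zero) c

theorem low {j : ℕ} (hj : 1 ≤ j) (hjm : j < m) (c : F) : InA hf M P (c • orb w P j) := by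
  induction j, hj using Nat.le_induction generalizing c with
  | base => exact (off_one hf H hM hw hst hκ (by omega) c).toInA hf
  | succ j hj ih =>
    have h1 := flip hf H hM hw hst hκ hN (j := 2 * m - 1) (by omega) (by omega) (by omega)
      (fun c => (off_neg hf H hM hw hst hκ (by omega) c).toInA hf) 1
    rw [show 2 * m - 1 + m = m - 1 + 2 * m by omega, H.per_add] at h1
    have h2 := transA hf H hM hw (i := j + 1) h1
    rw [show j + 1 + (m - 1) = j + m by omega, one_smul] at h2
    have h3 := inX_commut hf hM (ih (by omega) c) h2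
      (by conv_lhs => arg 2; rw [← orb_zero w P]
          exact H.pp_zero (by omega) (by omega) (by omega))
      (by conv_lhs => arg 1; rw [← orb_zero w P]
          exact H.pp_zero (by omega) (by omega) (by omega))
      (by rw [hf.smul_left, H.pp_zero (by omega) (by omega) (by omega), mul_zero])
    rw [hf.smul_left, H.pp_one (by omega) (by omega) (by omega), mul_one] at h3
    exact h3.toInA hf

theorem every {j : ℕ} (hj : j < 2 * m) (hjm : j ≠ m) (c : F) : InA hf M P (c • orb w P j) := by
  rcases Nat.eq_zero_or_pos j with rfl | hj0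
  · rw [orb_zero]
    exact inA_self hf (by have := H.iso_P 0; rwa [orb_zero] at this) c
  rcases lt_or_gt_of_ne hjm with h | h
  · exact low hf H hM hw hst hκ hN hj0 h c
  · have h1 := flip hf H hM hw hst hκ hN (j := j - m) (by omega) (by omega) (by omega)
      (low hf H hM hw hst hκ hN (by omega) (by omega)) c
    rwa [show j - m + m = j by omega] at h1

/-- Every root element with centre `P`. -/
theorem perp_all (hD : m = 1 → ∀ c : F, InA hf M P (c • orb w z 1)) (y : ι → F) (hy : f y P = 0) :
    InA hf M P y := by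
  have hP : f P P = 0 := by have := H.iso_P 0; rwa [orb_zero] at this
  let S : Submodule F (ι → F) :=
    { carrier := {y | ∀ c : F, InA hf M P (c • y)}
      add_mem' := fun {a b} ha hb c => by rw [smul_add]; exact inA_add hf (ha c) (hb c)
      zero_mem' := fun c => by rw [smul_zero]; exact inA_zero hf hP
      smul_mem' := fun k a ha c => by rw [smul_smul]; exact ha _ }
  have hS : Submodule.span F ((orb w P '' {j | j < 2 * m ∧ j ≠ m}) ∪ {z, orb w z 1}) ≤ S := by
    rw [Submodule.span_le]
    rintro v (⟨j, ⟨hj, hjm⟩, rfl⟩ | rfl | rfl)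
    · exact fun c => every hf H hM hw hst hκ hN hj hjm c
    · exact hst
    · intro c
      rcases lt_or_eq_of_le (show 1 ≤ m from H.pos) with hm | hm
      · refine inA_move hf hM (g := orb w P (1 + m)) (p := orb w P 1) ?_
          (every hf H hM hw hst hκ hN (by omega) (by omega))
          (every hf H hM hw hst hκ hN (by omega) (by omega)) ?_ ?_
          (H.pp_one (by omega) (by omega) (by omega)) (H.hPZ _ _) c
        · simpa using transZ hf H hM hw hst 1 1
        · conv_lhs => arg 1; rw [← orb_zero w P]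
          exact H.pp_zero (by omega) (by omega) (by omega)
        · conv_lhs => arg 1; rw [← orb_zero w P]
          exact H.hPZ _ _
      · exact hD hm.symm c
  simpa using hS (H.span y hy) 1

/-- All root transvections are contained. -/
theorem centres_top (hD : m = 1 → ∀ c : F, InA hf M P (c • orb w z 1)) (v : ι → F) (hv : f v v = 0) :
    v ∈ centres hf M := by
  refine centres_all hf hM (perp_all hf H hM hw hst hκ hN hD)
    (by have := full hf H hM hw hst hκ hN 0; rwa [orb_zero] at this) (M.pow_mem hw m) ?_ v hv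
  show f (orb w P m) P = 1
  conv_lhs => arg 2; rw [← orb_zero w P]
  exact H.pp_one (by have := H.pos; omega) (by have := H.pos; omega) (by omega)

end Frame

/-- A subgroup containing all transvections contains the special unitary group. -/
theorem su_le_of_centres {F : Type*} [Field F] [Fintype F] {q n : ℕ} (hF : Fintype.card F = q ^ 2)
    (hn : 2 ≤ n) (h32 : ¬(n = 3 ∧ q = 2)) {M : Subgroup (GL (Fin n) F)}
    (h : ∀ v, Cfsg.hermForm n F q v v = 0 → v ∈ centres (isUnitary_std hF) M) :
    Cfsg.GU n F q ⊓ Cfsg.Geo.specialLinear (Fin n) F ≤ M := by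
  rintro g ⟨hg, hdet⟩
  have hker : (⟨g, hg⟩ : Cfsg.GU n F q) ∈ (Cfsg.Agent.H3.guDet n F q).ker := MonoidHom.mem_ker.mp hdet
  have hle : Cfsg.Agent.H3.transGroup n F q ≤ M.comap (Cfsg.GU n F q).subtype := by
    refine (Subgroup.closure_le _).2 ?_
    rintro s ⟨v, c, hv, hs⟩
    change (s : GL (Fin n) F) ∈ M
    rcases eq_or_ne v 0 with rfl | hv0
    · convert M.one_mem using 1
      refine gl_ext fun x => ?_
      change (s.1 : Matrix (Fin n) (Fin n) F) *ᵥ x = _
      rw [hs, Cfsg.Agent.H3.unitaryTransvection_mulVec]; simp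
    have hc : c + c ^ q = 0 := Cfsg.Agent.H3.trace_zero_of_transvection_preserves hF hv0 hv fun x y => by
      rw [← hs]; exact s.2 x y
    obtain ⟨_, hd⟩ := h v hv
    convert hd c (by rw [frobQ_apply]; linear_combination hc) using 1
    refine gl_ext fun x => ?_
    change (s.1 : Matrix (Fin n) (Fin n) F) *ᵥ x = _
    rw [hs, Cfsg.Agent.H3.unitaryTransvection_mulVec, uT_mulVec]
  exact hle (Cfsg.Agent.H3.ker_le_transGroup hF hn h32 hker)

end Cfsg.Agent.H98.TG
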