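import Cfsg.Agent.H98.TwoGen.Engine
import Cfsg.Agent.H98.FormPreserve.UBasic

/-!
# Hyperbolic frames of the standard Hermitian space, their rotations and tori
-/

set_option autoImplicit false
set_option linter.unusedSectionVars false

namespace Cfsg.Agent.H98.TG

open scoped Matrix
open Cfsg.Agent.H98.Herm Module

/-- The pairing of the frame indices. -/
def pair (m r : ℕ) : Fin (2 * m) ⊕ Fin r → Fin (2 * m) ⊕ Fin r :=
  Sum.elim (fun i => Sum.inl ⟨((i : ℕ) + m) % (2 * m), Nat.mod_lt _ (by have := i.2; omega)⟩) Sum.inr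

theorem pair_pair (m r : ℕ) (i : Fin (2 * m) ⊕ Fin r) : pair m r (pair m r i) = i := by
  rcases i with i | i
  · simp only [pair, Sum.elim_inl, Sum.inl.injEq, Fin.ext_iff, Nat.mod_add_mod]
    rw [show (i : ℕ) + m + m = (i : ℕ) + 2 * m by omega, Nat.add_mod_right, Nat.mod_eq_of_lt i.2]
  · rfl


theorem finRotate_val (k : ℕ) (i : Fin k) : ((finRotate k i : Fin k) : ℕ) = ((i : ℕ) + 1) % k := by
  cases k with
  | zero => exact i.elim0
  | succ k => rw [finRotate_apply, Fin.val_add, Fin.val_one', Nat.add_mod_mod]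

variable {F : Type*} [Field F] [Fintype F] {q n m r : ℕ} (hF : Fintype.card F = q ^ 2)

/-- The special isometry group. -/
abbrev SUn (n : ℕ) (F : Type*) [Field F] (q : ℕ) : Subgroup (GL (Fin n) F) :=
  Cfsg.GU n F q ⊓ Cfsg.Geo.specialLinear (Fin n) F

/-- A frame basis. -/
def IsFrameBasis (q : ℕ) (b : Basis (Fin (2 * m) ⊕ Fin r) F (Fin n → F)) : Prop :=
  ∀ i j, Cfsg.hermForm n F q (b i) (b j) = if pair m r i = j then 1 else 0

include hF in
theorem exists_frameBasis (hn : 2 * m + r = n) :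
    ∃ b : Basis (Fin (2 * m) ⊕ Fin r) F (Fin n → F), IsFrameBasis q b := by
  let e : Fin n ≃ Fin (2 * m) ⊕ Fin r := (finCongr hn.symm).trans finSumFinEquiv.symm
  let b0 := (Pi.basisFun F (Fin n)).reindex e
  obtain ⟨h, hh⟩ := FP.exists_isometry hF (FP.isHerm_gram hF b0 (pair_pair m r)) (H3.isHerm_hermB hF n)
    (Module.finrank_fin_fun F) (Module.finrank_fin_fun F)
  refine ⟨b0.map h, fun i j => ?_⟩
  rw [Basis.map_apply, Basis.map_apply, ← H3.hermB_apply hF, hh, FP.gram_basis]

/-- A vector in the anisotropic part. -/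
noncomputable def dvec (b : Basis (Fin (2 * m) ⊕ Fin r) F (Fin n → F)) (a : Fin r → F) : Fin n → F :=
  ∑ k, a k • b (Sum.inr k)

variable {b : Basis (Fin (2 * m) ⊕ Fin r) F (Fin n → F)}

theorem gl_ext_basis {g h : GL (Fin n) F}
    (he : ∀ i, (g : Matrix (Fin n) (Fin n) F) *ᵥ b i = (h : Matrix (Fin n) (Fin n) F) *ᵥ b i) : g = h := by
  refine gl_ext fun v => ?_
  have : Matrix.toLin' (g : Matrix (Fin n) (Fin n) F) = Matrix.toLin' (h : Matrix (Fin n) (Fin n) F) :=
    b.ext fun i => by rw [Matrix.toLin'_apply, Matrix.toLin'_apply, he]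
  simpa [Matrix.toLin'_apply] using LinearMap.congr_fun this v

variable (hb : IsFrameBasis q b)
include hF hb

theorem form_inl_inl (i j : Fin (2 * m)) :
    Cfsg.hermForm n F q (b (Sum.inl i)) (b (Sum.inl j)) =
      if ((i : ℕ) + m) % (2 * m) = (j : ℕ) then 1 else 0 := by
  rw [hb]; simp [pair, Fin.ext_iff]

theorem form_dvec (a a' : Fin r → F) :
    Cfsg.hermForm n F q (dvec b a) (dvec b a') = ∑ k, a k * a' k ^ q := by
  rw [← H3.hermB_apply hF, dvec, dvec, map_sum]
  refine Finset.sum_congr rfl fun l _ => ?_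
  rw [map_smul, map_sum, LinearMap.sum_apply, smul_eq_mul, Finset.sum_eq_single l]
  · rw [LinearMap.map_smulₛₗ, LinearMap.smul_apply, H3.hermB_apply, hb, if_pos (by rfl), smul_eq_mul, mul_one,
      H3.conjQ_apply]
  · intro k _ hk
    rw [LinearMap.map_smulₛₗ, LinearMap.smul_apply, H3.hermB_apply, hb,
      if_neg (by simpa [pair] using hk.symm), smul_zero]
  · simp

theorem form_inl_dvec (i : Fin (2 * m)) (a : Fin r → F) :
    Cfsg.hermForm n F q (b (Sum.inl i)) (dvec b a) = 0 := by
  rw [← H3.hermB_apply hF, dvec, map_sum, LinearMap.sum_apply]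
  refine Finset.sum_eq_zero fun k _ => ?_
  rw [LinearMap.map_smulₛₗ, LinearMap.smul_apply, H3.hermB_apply, hb, if_neg (by simp [pair]), smul_zero]

/-- An isometry given by the images of the frame. -/
theorem exists_map (v : Fin (2 * m) ⊕ Fin r → Fin n → F)
    (hv : ∀ i j, Cfsg.hermForm n F q (v i) (v j) = if pair m r i = j then 1 else 0)
    (hdet : (b.toMatrix v).det = 1) :
    ∃ g ∈ SUn n F q, ∀ i, (g : Matrix (Fin n) (Fin n) F) *ᵥ b i = v i := by
  let L : (Fin n → F) →ₗ[F] (Fin n → F) := b.constr F v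
  have hL : ∀ i, L (b i) = v i := fun i => b.constr_basis F v i
  have hform : ∀ x y, Cfsg.hermForm n F q (L x) (L y) = Cfsg.hermForm n F q x y := by
    intro x y
    have h1 : ((H3.hermB hF n).comp L).compl₂ L = H3.hermB hF n := by
      refine b.ext fun i => b.ext fun j => ?_
      rw [LinearMap.compl₂_apply, LinearMap.comp_apply, H3.hermB_apply, H3.hermB_apply, hL, hL, hv, hb]
    simpa [H3.hermB_apply] using LinearMap.congr_fun₂ h1 y x
  have hd : LinearMap.det L = 1 := by
    rw [← LinearMap.det_toMatrix b, ← hdet]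
    congr 1
    ext i j
    rw [LinearMap.toMatrix_apply, hL, Basis.toMatrix_apply]
  let e : (Fin n → F) ≃ₗ[F] (Fin n → F) := LinearMap.equivOfDetNeZero L (by rw [hd]; exact one_ne_zero)
  have he : ∀ x, e x = L x := fun x => rfl
  have hform' : ∀ x y, Cfsg.hermForm n F q (e x) (e y) = Cfsg.hermForm n F q x y := hform
  refine ⟨(H3.guOfEquiv e hform').1, Subgroup.mem_inf.mpr ⟨(H3.guOfEquiv e hform').2, ?_⟩,
    fun i => by rw [H3.guOfEquiv_mulVec, he, hL]⟩
  rw [Cfsg.Geo.specialLinear, MonoidHom.mem_ker]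
  refine Units.ext ?_
  rw [Matrix.GeneralLinearGroup.val_det_apply]
  show (LinearMap.toMatrix' (e : (Fin n → F) →ₗ[F] (Fin n → F))).det = 1
  rw [LinearMap.det_toMatrix']
  exact hd

/-- A torus element. -/
theorem exists_torus (c : Fin (2 * m) ⊕ Fin r → F) (hc : ∀ i, c i * c (pair m r i) ^ q = 1)
    (hdet : ∏ i, c i = 1) : ∃ h ∈ SUn n F q, ∀ i, (h : Matrix (Fin n) (Fin n) F) *ᵥ b i = c i • b i := by
  refine exists_map hF hb (fun i => c i • b i) (fun i j => ?_) ?_
  · rw [← H3.hermB_apply hF, map_smul, LinearMap.map_smulₛₗ, LinearMap.smul_apply, H3.hermB_apply, hb,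
      H3.conjQ_apply, smul_eq_mul, smul_eq_mul]
    split_ifs with h
    · subst h; rw [mul_one]; exact hc i
    · simp
  · rw [← hdet, ← Matrix.det_diagonal]
    congr 1
    ext i j
    rw [Basis.toMatrix_apply, map_smul, Finsupp.smul_apply, Basis.repr_self, Finsupp.single_apply,
      Matrix.diagonal_apply]
    rcases eq_or_ne i j with rfl | h
    · simp
    · rw [if_neg h, if_neg h.symm, smul_zero]

/-- A rotation of the frame. -/
theorem exists_rot (hm : 0 < m) (R : Matrix (Fin r) (Fin r) F)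
    (hR : ∀ i j, ∑ k, R k i * R k j ^ q = if i = j then 1 else 0) (hdR : R.det = -1) :
    ∃ w ∈ SUn n F q,
      (∀ i, (w : Matrix (Fin n) (Fin n) F) *ᵥ b (Sum.inl i) = b (Sum.inl (finRotate (2 * m) i))) ∧
      ∀ a, (w : Matrix (Fin n) (Fin n) F) *ᵥ dvec b a = dvec b (R *ᵥ a) := by
  have hdv : ∀ a k, b.repr (dvec b a) (Sum.inr k) = a k ∧ ∀ i, b.repr (dvec b a) (Sum.inl i) = 0 := by
    intro a k
    refine ⟨?_, fun i => ?_⟩ <;>
      simp [dvec, Finsupp.single_apply]
  obtain ⟨w, hw, hwb⟩ := exists_map hF hb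
    (Sum.elim (fun i => b (Sum.inl (finRotate (2 * m) i))) (fun j => dvec b (fun k => R k j))) (by
      rintro (i | i) (j | j) <;> simp only [Sum.elim_inl, Sum.elim_inr]
      · rw [form_inl_inl hF hb]
        simp only [pair, Sum.elim_inl, Sum.inl.injEq, Fin.ext_iff, finRotate_val]
        have e : (((i : ℕ) + 1) % (2 * m) + m) % (2 * m) = ((i : ℕ) + m + 1) % (2 * m) := by
          rw [Nat.mod_add_mod]; congr 1; omega
        rw [e]
        refine if_congr ?_ rfl rfl
        constructor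
        · intro h
          have := Nat.ModEq.add_right_cancel' 1 (h : (i : ℕ) + m + 1 ≡ (j : ℕ) + 1 [MOD 2 * m])
          rw [Nat.ModEq, Nat.mod_eq_of_lt j.2] at this
          exact this
        · intro h; rw [← h, Nat.mod_add_mod]
      · rw [form_inl_dvec hF hb]; simp [pair]
      · rw [eq_zero_comm (isUnitary_std hF) |>.mp (form_inl_dvec hF hb _ _)]; simp [pair]
      · rw [form_dvec hF hb, hR]; simp [pair]) (by
      have hM : b.toMatrix (Sum.elim (fun i => b (Sum.inl (finRotate (2 * m) i)))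
          (fun j => dvec b (fun k => R k j))) =
          Matrix.fromBlocks (Equiv.Perm.permMatrix F (finRotate (2 * m)).symm) 0 0 R := by
        ext (i | i) (j | j) <;> rw [Basis.toMatrix_apply] <;>
          simp only [Sum.elim_inl, Sum.elim_inr, Matrix.fromBlocks_apply₁₁, Matrix.fromBlocks_apply₁₂,
            Matrix.fromBlocks_apply₂₁, Matrix.fromBlocks_apply₂₂, Matrix.zero_apply]
        · rw [Basis.repr_self, Finsupp.single_apply]
          simp only [Equiv.Perm.permMatrix, PEquiv.toMatrix_apply, Equiv.toPEquiv_apply,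
            Option.mem_some_iff, Sum.inl.injEq, eq_comm]
          exact if_congr ((eq_comm).trans (Equiv.eq_symm_apply _).symm) rfl rfl
        · exact (hdv _ j).2 i
        · simp [Finsupp.single_apply]
        · exact (hdv _ i).1
      rw [hM, Matrix.det_fromBlocks_zero₁₂, hdR, Matrix.det_permutation, Equiv.Perm.sign_symm,
        show 2 * m = (2 * m - 1) + 1 by omega, sign_finRotate]
      have : Odd (2 * m - 1) := ⟨m - 1, by omega⟩
      simp [this.neg_one_pow])
  refine ⟨w, hw, fun i => by rw [hwb]; rfl, fun a => ?_⟩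
  rw [dvec, Matrix.mulVec_sum]
  simp only [Matrix.mulVec_smul, hwb, Sum.elim_inr, dvec, Finset.smul_sum, smul_smul, Matrix.mulVec,
    dotProduct, Finset.sum_smul]
  rw [Finset.sum_comm]
  simp [mul_comm]

/-- The rotation yields a frame. -/
theorem frame_of_rot (hm : 0 < m) {R : Matrix (Fin r) (Fin r) F} {w : GL (Fin n) F}
    (hwP : ∀ i, (w : Matrix (Fin n) (Fin n) F) *ᵥ b (Sum.inl i) = b (Sum.inl (finRotate (2 * m) i)))
    (hwD : ∀ a, (w : Matrix (Fin n) (Fin n) F) *ᵥ dvec b a = dvec b (R *ᵥ a))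
    (a : Fin r → F) (ha : ∀ k, Pi.single k 1 ∈ Submodule.span F {a, R *ᵥ a}) :
    Frame (Cfsg.hermForm n F q) m w (b (Sum.inl ⟨0, by omega⟩)) (dvec b a) ∧
      (∀ j, orb w (b (Sum.inl ⟨0, by omega⟩)) j = b (Sum.inl ⟨j % (2 * m), Nat.mod_lt _ (by omega)⟩)) ∧
      ∀ j, orb w (dvec b a) j = dvec b ((R ^ j) *ᵥ a) := by
  have hP : ∀ j, orb w (b (Sum.inl ⟨0, by omega⟩)) j =
      b (Sum.inl ⟨j % (2 * m), Nat.mod_lt _ (by omega)⟩) := by
    intro j
    induction j with
    | zero => rw [orb_zero]; simp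
    | succ j ih =>
      rw [add_comm, ← orb_add, pow_one, ih, hwP]
      congr 2
      ext
      rw [finRotate_val, add_comm 1 j, Nat.mod_add_mod]
  have hZ : ∀ j, orb w (dvec b a) j = dvec b ((R ^ j) *ᵥ a) := by
    intro j
    induction j with
    | zero => rw [orb_zero]; simp
    | succ j ih => rw [add_comm, ← orb_add, pow_one, ih, hwD, Matrix.mulVec_mulVec, add_comm, pow_succ']
  refine ⟨⟨hm, ?_, fun i j => ?_, fun i j => ?_, fun y hy => ?_⟩, hP, hZ⟩
  · rw [hP]; simp
  · rw [hP, hP, form_inl_inl hF hb]; simp only [Nat.mod_add_mod]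
  · rw [hP, hZ, form_inl_dvec hF hb]
  · set S := Submodule.span F ((orb w (b (Sum.inl ⟨0, by omega⟩)) '' {j | j < 2 * m ∧ j ≠ m}) ∪
      {dvec b a, orb w (dvec b a) 1})
    have hd : ∀ k, b (Sum.inr k) ∈ S := by
      intro k
      obtain ⟨x, y', hxy⟩ := Submodule.mem_span_pair.mp (ha k)
      have e : b (Sum.inr k) = x • dvec b a + y' • orb w (dvec b a) 1 := by
        have e2 : dvec b (x • a + y' • (R *ᵥ a)) = x • dvec b a + y' • orb w (dvec b a) 1 := by
          rw [hZ, pow_one]
          simp [dvec, add_smul, Finset.sum_add_distrib, Finset.smul_sum, smul_smul]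
        rw [← e2, hxy]
        simp [dvec, Pi.single_apply, ite_smul]
      rw [e]
      exact S.add_mem (S.smul_mem _ (Submodule.subset_span (Or.inr (Or.inl rfl))))
        (S.smul_mem _ (Submodule.subset_span (Or.inr (Or.inr rfl))))
    have hcoef : b.repr y (Sum.inl ⟨m, by omega⟩) = 0 := by
      rw [← b.sum_repr y, ← H3.hermB_apply hF, map_sum,
        Finset.sum_eq_single (Sum.inl (⟨m, by omega⟩ : Fin (2 * m)))] at hy
      · rw [map_smul, H3.hermB_apply, hb, if_pos, smul_eq_mul, mul_one] at hy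
        · exact hy
        · simp [pair, ← two_mul]
      · intro i _ hi
        rw [map_smul, H3.hermB_apply, hb, if_neg, smul_zero]
        intro h
        apply hi
        rw [← pair_pair m r i, h]
        simp [pair, Nat.mod_eq_of_lt (show m < 2 * m by omega)]
      · simp
    rw [← b.sum_repr y]
    refine S.sum_mem fun i _ => ?_
    rcases i with i | i
    · by_cases hi : (i : ℕ) = m
      · rw [show i = ⟨m, by omega⟩ from Fin.ext hi, hcoef, zero_smul]; exact S.zero_mem
      · refine S.smul_mem _ (Submodule.subset_span (Or.inl ⟨i, ⟨i.2, hi⟩, ?_⟩))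
        rw [hP]
        congr 2
        exact Fin.ext (Nat.mod_eq_of_lt i.2)
    · exact S.smul_mem _ (hd i)

end Cfsg.Agent.H98.TG
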