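import Cfsg.Agent.H98.TwoGen.Frame

/-!
# Pairs generating the special unitary group
-/

set_option autoImplicit false
set_option linter.unusedSectionVars false
set_option linter.style.haveILetI false

namespace Cfsg.Agent.H98.TG

open scoped Matrix
open Cfsg.Agent.H98.Herm Module

section Abstract

variable {ι : Type} [Fintype ι] [DecidableEq ι] {F : Type*} [Field F] [Finite F]
variable {σ : F ≃+* F} {f : (ι → F) → (ι → F) → F} (hf : Cfsg.Geo.IsUnitaryForm σ f)
variable {M : Subgroup (GL ι F)}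

include hf

theorem inX_add {e z z' : ι → F} (h : InX hf M e z) (h' : InX hf M e z') (hzz : f z' z = 0) :
    InX hf M e (z + z') := by
  obtain ⟨h1, he, hze, hmem⟩ := h
  obtain ⟨h2, _, hze', hmem'⟩ := h'
  have h0 : f (z + z') e = 0 := by rw [hf.add_left, hze, hze', add_zero]
  refine ⟨by simp [hf.add_left, add_right hf, h1, h2, hzz, (eq_zero_comm hf).mp hzz], he, h0, ?_⟩
  have := M.mul_mem hmem hmem'
  rwa [eich_mul hf he hze hze' 0 0 h0, hzz, add_zero, sub_zero] at this

theorem inX_zero {e : ι → F} (he : f e e = 0) : InX hf M e 0 :=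
  ⟨zero_left hf 0, he, zero_left hf e, by rw [eich_one hf he]; exact M.one_mem⟩

theorem inX_neg {e z : ι → F} (h : InX hf M e z) : InX hf M e (-z) := by
  obtain ⟨h1, he, hze, hmem⟩ := h
  have h0 : f (-z) e = 0 := by rw [neg_left hf, hze, neg_zero]
  refine ⟨by rw [neg_left hf, neg_right hf, h1]; simp, he, h0, ?_⟩
  have := M.inv_mem hmem
  rwa [eich_inv hf he hze h0 (by rw [map_zero, h1]; simp), map_zero] at this

/-- The scalars of root elements along a line. -/
def scalA (M : Subgroup (GL ι F)) {e : ι → F} (z : ι → F) (he : f e e = 0) : AddSubgroup F where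
  carrier := {c | InA hf M e (c • z)}
  add_mem' {a b} ha hb := by
    show InA hf M e ((a + b) • z)
    rw [add_smul]; exact inA_add hf ha hb
  zero_mem' := by show InA hf M e ((0 : F) • z); rw [zero_smul]; exact inA_zero hf he
  neg_mem' {a} ha := by show InA hf M e ((-a) • z); rw [neg_smul]; exact inA_neg hf ha

/-- The scalars of root elements with parameter zero along an isotropic line. -/
def scalX (M : Subgroup (GL ι F)) {e z : ι → F} (he : f e e = 0) (hz : f z z = 0) : AddSubgroup F where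
  carrier := {c | InX hf M e (c • z)}
  add_mem' {a b} ha hb := by
    show InX hf M e ((a + b) • z)
    rw [add_smul]; exact inX_add hf ha hb (by rw [hf.smul_left, smul_right hf, hz, mul_zero, mul_zero])
  zero_mem' := by show InX hf M e ((0 : F) • z); rw [zero_smul]; exact inX_zero hf he
  neg_mem' {a} ha := by show InX hf M e ((-a) • z); rw [neg_smul]; exact inX_neg hf ha

/-- The product of a root element and a conjugate of its inverse. -/
theorem twist_scal (hM : IsoOn f M) {h g x w : GL ι F} (hh : h ∈ M) (hg : g ∈ M) (hb : x * w ∈ M)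
    (hwh : g * w * h = w)
    {e z : ι → F} {γ : F} (he : f e e = 0) (hze : f z e = 0) (hγ : γ + σ γ + f z z = 0)
    (hx : x = eich hf he hze γ) {l s : F}
    (hge : ((g⁻¹ : GL ι F) : Matrix ι ι F) *ᵥ e = l • e) (hgz : ((g⁻¹ : GL ι F) : Matrix ι ι F) *ᵥ z = s • z) :
    InA hf M e ((1 - σ l * s) • z) ∧
      (f z z = 0 → γ = 0 → InX hf M e ((1 - σ l * s) • z)) := by
  have hmem : x * (g⁻¹ * x⁻¹ * g⁻¹⁻¹) ∈ M := by
    have e1 : x * (g⁻¹ * x⁻¹ * g⁻¹⁻¹) = x * w * h * (x * w)⁻¹ * g := by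
      have e2 : w * h = g⁻¹ * w := by rw [eq_inv_mul_iff_mul_eq, ← mul_assoc, hwh]
      calc x * (g⁻¹ * x⁻¹ * g⁻¹⁻¹) = x * (g⁻¹ * w) * w⁻¹ * x⁻¹ * g := by group
        _ = x * (w * h) * w⁻¹ * x⁻¹ * g := by rw [e2]
        _ = _ := by group
    rw [e1]
    exact M.mul_mem (M.mul_mem (M.mul_mem hb hh) (M.inv_mem hb)) hg
  have hgi' := hM g⁻¹ (M.inv_mem hg)
  have h0 : f (-z) e = 0 := by rw [neg_left hf, hze, neg_zero]
  have hle : f (l • e) (l • e) = 0 := by rw [hf.smul_left, smul_right hf, he, mul_zero, mul_zero]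
  have hsz : f (s • -z) (l • e) = 0 := by rw [hf.smul_left, smul_right hf, h0, mul_zero, mul_zero]
  have hσz : f (σ l • s • -z) e = 0 := by rw [hf.smul_left, hf.smul_left, h0, mul_zero, mul_zero]
  have hconj : g⁻¹ * x⁻¹ * g⁻¹⁻¹ = eich hf he hσz (l * σ l * σ γ) := by
    rw [hx, eich_inv hf he hze h0 hγ, eich_conj hf hgi' he h0 (σ γ) (by rw [hgi', he]) (by rw [hgi', h0]),
      ← eich_smul hf l he hσz hle hsz]
    exact eich_congr hf _ _ _ _ hge (by rw [Matrix.mulVec_neg, hgz, smul_neg]) rfl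
  have hγ' : l * σ l * σ γ + σ (l * σ l * σ γ) + f (σ l • s • -z) (σ l • s • -z) = 0 := by
    have hN : f (s • z) (s • z) = f z z := by rw [← hgz, hgi']
    rw [smul_neg, smul_neg, neg_left hf, neg_right hf, hf.smul_left, smul_right hf, hN, map_mul, map_mul,
      hf.involutive, hf.involutive]
    linear_combination (l * σ l) * hγ
  have hsum : z + σ l • s • -z = (1 - σ l * s) • z := by module
  have h1 : f (z + σ l • s • -z) e = 0 := by rw [hf.add_left, hze, hσz, add_zero]
  rw [hconj, hx, eich_mul hf he hze hσz γ _ h1] at hmem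
  refine ⟨?_, fun hN hγ0 => ?_⟩
  · have : InA hf M e (z + σ l • s • -z) := ⟨he, h1, _, valid_mul hf hγ hγ', hmem⟩
    rwa [hsum] at this
  · have : InX hf M e (z + σ l • s • -z) := by
      refine ⟨?_, he, h1, ?_⟩
      · rw [hsum, hf.smul_left, smul_right hf, hN, mul_zero, mul_zero]
      · convert hmem using 2
        rw [hγ0, map_zero, smul_neg, smul_neg, neg_left hf, hf.smul_left, hf.smul_left, hN]
        ring
    rwa [hsum] at this

omit [Fintype ι] [DecidableEq ι] [Finite F] hf in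
/-- An additive subgroup stable under a scalar generating the field is the whole field. -/
theorem addSubgroup_eq_top {F : Type*} [Field F] [Fintype F] {q : ℕ} (hF : Fintype.card F = q ^ 2)
    (S : AddSubgroup F) {χ c : F} (hc : c ∈ S) (hc0 : c ≠ 0) (hχ : ∀ x ∈ S, χ * x ∈ S)
    (hord : q ≤ orderOf χ) (x : F) : x ∈ S := by
  have hpow : ∀ a : F, (∀ y ∈ S, a * y ∈ S) → ∀ k : ℕ, ∀ y ∈ S, a ^ k * y ∈ S := by
    intro a ha k
    induction k with
    | zero => intro y hy; simpa using hy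
    | succ k ih => intro y hy; rw [pow_succ', mul_assoc]; exact ha _ (ih y hy)
  let K : Subfield F :=
    { carrier := {a | ∀ y ∈ S, a * y ∈ S}
      mul_mem' := fun {a b} ha hb y hy => by rw [mul_assoc]; exact ha _ (hb y hy)
      one_mem' := fun y hy => by rwa [one_mul]
      add_mem' := fun {a b} ha hb y hy => by rw [add_mul]; exact S.add_mem (ha y hy) (hb y hy)
      zero_mem' := fun y _ => by rw [zero_mul]; exact S.zero_mem
      neg_mem' := fun {a} ha y hy => by rw [neg_mul]; exact S.neg_mem (ha y hy)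
      inv_mem' := fun a ha y hy => by
        rcases eq_or_ne a 0 with rfl | ha0
        · rw [inv_zero, zero_mul]; exact S.zero_mem
        have h2 : 2 ≤ Fintype.card F := Fintype.one_lt_card
        have : a⁻¹ = a ^ (Fintype.card F - 2) := by
          refine inv_eq_of_mul_eq_one_right ?_
          rw [← pow_succ', show Fintype.card F - 2 + 1 = Fintype.card F - 1 by omega,
            FiniteField.pow_card_sub_one_eq_one a ha0]
        rw [this]; exact hpow a ha _ y hy }
  have hK : Module.finrank K F = 1 := by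
    classical
    letI := Fintype.ofFinite K
    have hcard := Module.natCard_eq_pow_finrank (K := K) (V := F)
    rw [Nat.card_eq_fintype_card (α := F), hF] at hcard
    have hpos : 0 < Module.finrank K F := Module.finrank_pos
    by_contra hne
    have hle : Nat.card K ≤ q := by
      by_contra hlt
      push Not at hlt
      have h1 := Nat.pow_lt_pow_left hlt (n := 2) two_ne_zero
      have h2 := Nat.pow_le_pow_right Nat.card_pos (show 2 ≤ Module.finrank K F by omega) (n := Nat.card K)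
      omega
    have hχ0 : χ ≠ 0 := by
      rintro rfl
      rw [orderOf_zero] at hord
      have := Fintype.card_pos (α := F)
      rw [hF] at this
      simp [Nat.le_zero.mp hord] at this
    let u : Kˣ := Units.mk0 (⟨χ, hχ⟩ : K) (fun h => hχ0 (congrArg Subtype.val h))
    have h3 : orderOf χ = orderOf u := by
      rw [← orderOf_units]
      exact orderOf_injective (K.subtype : K →* F) Subtype.val_injective (u : K)
    have h4 : orderOf u ≤ Fintype.card Kˣ := orderOf_le_card_univ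
    rw [Fintype.card_units] at h4
    rw [Nat.card_eq_fintype_card] at hle
    have : 0 < Fintype.card K := Fintype.card_pos
    omega
  obtain ⟨a, ha⟩ := exists_smul_eq_of_finrank_eq_one hK hc0 x
  rw [← ha]
  exact a.2 c hc

end Abstract

variable {F : Type*} [Field F] [Fintype F] {q n m r : ℕ} (hF : Fintype.card F = q ^ 2)
include hF

theorem exists_gen : ∃ ω : F, ω ≠ 0 ∧ orderOf ω = q ^ 2 - 1 := by
  classical
  obtain ⟨g, hg⟩ := IsCyclic.exists_ofOrder_eq_natCard (α := Fˣ)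
  refine ⟨g, g.ne_zero, ?_⟩
  rw [orderOf_units, hg, Nat.card_eq_fintype_card, Fintype.card_units, hF]

theorem exists_circle : ∃ ζ : F, ζ ≠ 0 ∧ orderOf ζ = q + 1 := by
  obtain ⟨ω, hω, ho⟩ := exists_gen hF
  have hq := Cfsg.Agent.H3.two_le_q hF
  refine ⟨ω ^ (q - 1), pow_ne_zero _ hω, ?_⟩
  have e : q ^ 2 - 1 = (q - 1) * (q + 1) := by
    rw [mul_comm]; simpa using Nat.sq_sub_sq q 1
  rw [orderOf_pow_of_dvd (by omega) (by rw [ho, e]; exact dvd_mul_right _ _), ho, e,
    Nat.mul_div_cancel_left _ (by omega)]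

theorem circle_pow {ζ : F} (ho : orderOf ζ = q + 1) : ζ ^ q = ζ⁻¹ :=
  eq_inv_of_mul_eq_one_left (by rw [← pow_succ, ← ho, pow_orderOf_eq_one])

omit hF in
/-- Coprime factors of a commuting product. -/
theorem mem_of_commute_coprime {G : Type*} [Group G] {M : Subgroup G} {h u : G} (hc : Commute h u) {k l : ℕ}
    (hh : h ^ k = 1) (hu : u ^ l = 1) (hkl : Nat.Coprime l k) (hm : h * u ∈ M) : h ∈ M ∧ u ∈ M := by
  have h1 : h ^ l ∈ M := by
    have := M.pow_mem hm l
    rwa [hc.mul_pow, hu, mul_one] at this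
  obtain ⟨j, hj⟩ := exists_pow_eq_self_of_coprime
    (Nat.Coprime.coprime_dvd_right (orderOf_dvd_of_pow_eq_one hh) hkl)
  have h2 : h ∈ M := hj ▸ M.pow_mem h1 j
  exact ⟨h2, (Subgroup.mul_mem_cancel_left M h2).mp hm⟩

/-- A root element has order dividing `p²`. -/
theorem eich_pow_char {p : ℕ} [CharP F p] {e z : Fin n → F} (he : Cfsg.hermForm n F q e e = 0)
    (hze : Cfsg.hermForm n F q z e = 0) (γ : F) : eich (isUnitary_std hF) he hze γ ^ (p * p) = 1 := by
  have hf := isUnitary_std (n := n) hF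
  have key : ∀ {z : Fin n → F} (hze : Cfsg.hermForm n F q z e = 0) (γ : F) (k : ℕ),
      ∃ (h0 : Cfsg.hermForm n F q ((k : F) • z) e = 0) (γ' : F),
        eich hf he hze γ ^ k = eich hf he h0 γ' ∧ (z = 0 → γ' = (k : F) * γ) := by
    intro z hze γ k
    induction k with
    | zero =>
      refine ⟨by rw [Nat.cast_zero, zero_smul, zero_left hf], 0, ?_, fun _ => by simp⟩
      rw [pow_zero, ← eich_one hf he (zero_left hf e)]
      exact eich_congr hf _ _ _ _ rfl (by simp) rfl
    | succ k ih =>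
      obtain ⟨h0, γ', h1, h2⟩ := ih
      have h3 : Cfsg.hermForm n F q ((k : F) • z + z) e = 0 := by rw [hf.add_left, h0, hze, add_zero]
      refine ⟨by rw [hf.smul_left, hze, mul_zero], γ' + γ - Cfsg.hermForm n F q z ((k : F) • z), ?_, fun hz => ?_⟩
      · rw [pow_succ, h1, eich_mul hf he h0 hze γ' γ h3]
        refine eich_congr hf _ _ _ _ rfl ?_ rfl
        push_cast; module
      · rw [h2 hz, hz, zero_left hf]; push_cast; ring
  obtain ⟨h0, γ', h1, -⟩ := key hze γ p
  obtain ⟨h0', γ'', h2, h3⟩ := key (z := 0) (zero_left hf e) γ' p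
  rw [pow_mul, h1, eich_congr hf he h0 he (zero_left hf e) rfl (by simp) rfl, h2,
    ← eich_one hf he (zero_left hf e)]
  exact eich_congr hf _ _ _ _ rfl (by simp) (by rw [h3 rfl]; simp)

variable {b : Basis (Fin (2 * m) ⊕ Fin r) F (Fin n → F)} (hb : IsFrameBasis q b)
include hb

/-- A torus element given by half of its diagonal. -/
theorem exists_sym_torus (t : ℕ → F) (ht : ∀ k, t k ≠ 0) (s : Fin r → F) (hs : ∀ k, s k * s k ^ q = 1)
    (hdet : (∏ k ∈ Finset.range m, t k) * ((∏ k ∈ Finset.range m, t k) ^ q)⁻¹ * ∏ k, s k = 1) :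
    ∃ h ∈ SUn n F q,
      (∀ i : Fin (2 * m), (h : Matrix (Fin n) (Fin n) F) *ᵥ b (Sum.inl i) =
        (if (i : ℕ) < m then t i else (t ((i : ℕ) - m) ^ q)⁻¹) • b (Sum.inl i)) ∧
      ∀ k, (h : Matrix (Fin n) (Fin n) F) *ᵥ b (Sum.inr k) = s k • b (Sum.inr k) := by
  set τ : ℕ → F := fun i => if i < m then t i else (t (i - m) ^ q)⁻¹ with hτ
  obtain ⟨h, hh, hhb⟩ := exists_torus hF hb (Sum.elim (fun i : Fin (2 * m) => τ i) s) (by
    rintro (i | k)
    · simp only [Sum.elim_inl, pair, hτ]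
      rcases lt_or_ge (i : ℕ) m with hi | hi
      · rw [Nat.mod_eq_of_lt (by omega), if_pos hi, if_neg (by omega), Nat.add_sub_cancel, inv_pow,
          Cfsg.Agent.H3.pow_q_pow_q hF, mul_inv_cancel₀ (ht _)]
      · rw [Nat.mod_eq_sub_mod (by omega), Nat.mod_eq_of_lt (by have := i.2; omega), if_neg (by omega),
          if_pos (by have := i.2; omega), show (i : ℕ) + m - 2 * m = (i : ℕ) - m by omega,
          inv_mul_cancel₀ (pow_ne_zero _ (ht _))]
    · exact hs k) (by
    rw [Fintype.prod_sum_type]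
    simp only [Sum.elim_inl, Sum.elim_inr]
    rw [Fin.prod_univ_eq_prod_range τ, show 2 * m = m + m by omega, Finset.prod_range_add]
    have e1 : ∀ k ∈ Finset.range m, τ k = t k := fun k hk => if_pos (Finset.mem_range.mp hk)
    have e2 : ∀ k ∈ Finset.range m, τ (m + k) = (t k ^ q)⁻¹ := fun k _ => by simp [hτ]
    rw [Finset.prod_congr rfl e1, Finset.prod_congr rfl e2, Finset.prod_inv_distrib, Finset.prod_pow, hdet])
  exact ⟨h, hh, fun i => hhb (Sum.inl i), fun k => hhb (Sum.inr k)⟩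

/-- Hypotheses on the action on the anisotropic part. -/
def GoodRot (q m : ℕ) (R : Matrix (Fin r) (Fin r) F) (a : Fin r → F) : Prop :=
  (∀ i j, ∑ k, R k i * R k j ^ q = if i = j then 1 else 0) ∧ R.det = -1 ∧
  (∀ k, Pi.single k 1 ∈ Submodule.span F {a, R *ᵥ a}) ∧
  (2 ≤ m → ∑ k, a k * (R *ᵥ a) k ^ q ≠ 0) ∧
  (∑ k, a k * a k ^ q ≠ 0 ∨ 2 ≤ m ∧ ∑ k, a k * a k ^ q = 0 ∧ (3 ≤ m → ∑ k, a k * ((R ^ 2) *ᵥ a) k ^ q ≠ 0))

/-- Completion of all the cases. -/
theorem finish (hn : 2 ≤ n) (h32 : ¬(n = 3 ∧ q = 2)) (hm : 0 < m) {R : Matrix (Fin r) (Fin r) F} {a : Fin r → F}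
    (hR : GoodRot q m R a) {w : GL (Fin n) F}
    (hwP : ∀ i, (w : Matrix (Fin n) (Fin n) F) *ᵥ b (Sum.inl i) = b (Sum.inl (finRotate (2 * m) i)))
    (hwD : ∀ a, (w : Matrix (Fin n) (Fin n) F) *ᵥ dvec b a = dvec b (R *ᵥ a))
    {M : Subgroup (GL (Fin n) F)} (hM : M ≤ SUn n F q) (hw : w ∈ M)
    (hst : ∀ c : F, InA (isUnitary_std hF) M (b (Sum.inl ⟨0, by omega⟩)) (c • dvec b a))
    (hD : m = 1 → ∀ c : F, InA (isUnitary_std hF) M (b (Sum.inl ⟨0, by omega⟩)) (c • dvec b (R *ᵥ a))) :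
    SUn n F q ≤ M := by
  obtain ⟨-, -, hsp, hκ, hN⟩ := hR
  obtain ⟨H, -, hZ⟩ := frame_of_rot hF hb hm hwP hwD a hsp
  refine su_le_of_centres hF hn h32 (Frame.centres_top (isUnitary_std hF) H (fun g hg => (hM hg).1) hw hst ?_ ?_ ?_)
  · intro h2; rw [hZ, pow_one, form_dvec hF hb]; exact hκ h2
  · rw [form_dvec hF hb, hZ, form_dvec hF hb]
    exact hN.imp_right fun h => ⟨h.1, h.2.2⟩
  · intro h1; rw [hZ, pow_one]; exact hD h1

omit hF hb in
theorem torus_dvec {h : GL (Fin n) F} {s : Fin r → F}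
    (hs : ∀ k, (h : Matrix (Fin n) (Fin n) F) *ᵥ b (Sum.inr k) = s k • b (Sum.inr k)) (a : Fin r → F) :
    (h : Matrix (Fin n) (Fin n) F) *ᵥ dvec b a = dvec b (fun k => s k * a k) := by
  simp only [dvec, Matrix.mulVec_sum, Matrix.mulVec_smul, hs, smul_smul]
  refine Finset.sum_congr rfl fun k _ => ?_
  rw [mul_comm]

omit hF hb in
theorem torus_dvec_one {h : GL (Fin n) F}
    (hs : ∀ k, (h : Matrix (Fin n) (Fin n) F) *ᵥ b (Sum.inr k) = (1 : F) • b (Sum.inr k)) (a : Fin r → F) :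
    (h : Matrix (Fin n) (Fin n) F) *ᵥ dvec b a = dvec b a := by
  simpa using torus_dvec hs a

theorem exists_gamma (a : Fin r → F) : ∃ γ : F, γ + frobQ hF γ + Cfsg.hermForm n F q (dvec b a) (dvec b a) = 0 ∧
    (∑ k, a k * a k ^ q = 0 → γ = 0) := by
  by_cases h : ∑ k, a k * a k ^ q = 0
  · exact ⟨0, by rw [map_zero, form_dvec hF hb, h]; simp, fun _ => rfl⟩
  · obtain ⟨γ, hγ⟩ := exists_trace (isUnitary_std (n := n) hF)
      (a := - Cfsg.hermForm n F q (dvec b a) (dvec b a)) (by rw [map_neg, sigma_apply (isUnitary_std hF)])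
    exact ⟨γ, by linear_combination hγ, fun h0 => absurd h0 h⟩

/-- The pair in large dimension. -/
theorem pair_large (hn : 2 ≤ n) (h32 : ¬(n = 3 ∧ q = 2)) (hm : 3 ≤ m) {R : Matrix (Fin r) (Fin r) F}
    {a : Fin r → F} (hR : GoodRot q m R a) :
    ∃ A ∈ SUn n F q, ∃ B ∈ SUn n F q, SUn n F q ≤ Subgroup.closure {A, B} := by
  obtain ⟨ω, hω, hoω⟩ := exists_gen hF
  obtain ⟨w, hw, hwP, hwD⟩ := exists_rot hF hb (by omega) R hR.1 hR.2.1
  set t : ℕ → F := fun k => if k = 1 then ω else if k = 2 then ω⁻¹ else 1 with ht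
  obtain ⟨h, hh, hhP, hhD⟩ := exists_sym_torus hF hb t (fun k => by rw [ht]; dsimp only; split_ifs <;> simp [hω])
    (fun _ => 1) (fun _ => by simp) (by
      have : ∏ k ∈ Finset.range m, t k = 1 := by
        rw [show m = 3 + (m - 3) by omega, Finset.prod_range_add,
          Finset.prod_eq_one (f := fun x => t (3 + x)) (fun x _ => by
            simp only [ht]; rw [if_neg (by omega), if_neg (by omega)])]
        simp [ht, Finset.prod_range_succ, hω]
      rw [this]; simp)
  have hf := isUnitary_std (n := n) hF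
  set P := b (Sum.inl (⟨0, by omega⟩ : Fin (2 * m))) with hPdef
  set z := dvec b a with hzdef
  have hP : Cfsg.hermForm n F q P P = 0 := by
    rw [hPdef, form_inl_inl hF hb, if_neg]
    simp [Nat.mod_eq_of_lt (show m < 2 * m by omega)]; omega
  have hzP : Cfsg.hermForm n F q z P = 0 := (eq_zero_comm hf).mp (form_inl_dvec hF hb _ a)
  obtain ⟨γ, hγ, -⟩ := exists_gamma hF hb a
  set u := eich hf hP hzP γ with hu
  have huS : u ∈ SUn n F q := ⟨fun x y => eich_iso hf hP hzP hγ x y, eich_mem_sl hf _ _ _⟩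
  have hhz : (h : Matrix (Fin n) (Fin n) F) *ᵥ z = z := torus_dvec_one hhD a
  have hhP0 : (h : Matrix (Fin n) (Fin n) F) *ᵥ P = P := by
    rw [hPdef, hhP]; simp [ht, show (0 : ℕ) < m by omega]
  have hcomm : Commute h u := by
    rw [Commute, SemiconjBy, ← mul_inv_eq_iff_eq_mul, hu,
      eich_conj hf hh.1 hP hzP γ (by rw [hhP0, hP]) (by rw [hhP0, hhz, hzP])]
    exact eich_congr hf _ _ _ _ hhP0 hhz rfl
  obtain ⟨p, hp⟩ := CharP.exists F
  haveI := hp
  haveI : Fact p.Prime := ⟨CharP.char_is_prime F p⟩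
  have hh1 : h ^ (q ^ 2 - 1) = 1 := by
    have hcb : ∀ i, ∃ c : F, c ≠ 0 ∧ (h : Matrix (Fin n) (Fin n) F) *ᵥ b i = c • b i := by
      rintro (i | k)
      · refine ⟨_, ?_, hhP i⟩
        simp only [ht]
        split_ifs <;> simp [hω]
      · exact ⟨1, one_ne_zero, hhD k⟩
    refine gl_ext_basis (b := b) fun i => ?_
    obtain ⟨c, hc, hci⟩ := hcb i
    have hk : ∀ k : ℕ, ((h ^ k : GL (Fin n) F) : Matrix (Fin n) (Fin n) F) *ᵥ b i = c ^ k • b i := by
      intro k
      induction k with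
      | zero => simp
      | succ k ih => rw [pow_succ, Units.val_mul, ← Matrix.mulVec_mulVec, hci, Matrix.mulVec_smul, ih, smul_smul,
          pow_succ']
    rw [hk, ← hF, FiniteField.pow_card_sub_one_eq_one c hc, one_smul, Units.val_one, Matrix.one_mulVec]
  have hcop : Nat.Coprime (p * p) (q ^ 2 - 1) := by
    have hpq : p ∣ q ^ 2 := by
      rw [← hF]
      obtain ⟨k, -, hk⟩ := FiniteField.card F p
      rw [hk]; exact dvd_pow_self p k.2.ne'
    have h1 : Nat.Coprime p (q ^ 2 - 1) := by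
      rw [Nat.Prime.coprime_iff_not_dvd Fact.out]
      intro hd
      have hq := Cfsg.Agent.H3.two_le_q hF
      have : 1 ≤ q ^ 2 := Nat.one_le_pow _ _ (by omega)
      have h1 := Nat.dvd_sub hpq hd
      rw [show q ^ 2 - (q ^ 2 - 1) = 1 by omega] at h1
      exact (Fact.out : p.Prime).not_dvd_one h1
    exact h1.mul_left h1
  refine ⟨h * u, Subgroup.mul_mem _ hh huS, w, hw, ?_⟩
  set M := Subgroup.closure ({h * u, w} : Set (GL (Fin n) F))
  have hM : M ≤ SUn n F q := by
    rw [Subgroup.closure_le]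
    rintro x (rfl | rfl)
    exacts [Subgroup.mul_mem _ hh huS, hw]
  have hwM : w ∈ M := Subgroup.subset_closure (Or.inr rfl)
  obtain ⟨hhM, huM⟩ := mem_of_commute_coprime hcomm hh1 (eich_pow_char hF (p := p) hP hzP γ) hcop
    (Subgroup.subset_closure (Set.mem_insert _ _))
  have hiso : IsoOn (Cfsg.hermForm n F q) M := fun g hg => (hM hg).1
  obtain ⟨H, hPj, hZj⟩ := frame_of_rot hF hb (by omega) hwP hwD a hR.2.2.1
  have hst0 : InA hf M P z := ⟨hP, hzP, γ, hγ, huM⟩
  have h1 := inA_conj hf hiso hwM hst0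
  set P1 := (w : Matrix (Fin n) (Fin n) F) *ᵥ P with hP1
  set z1 := (w : Matrix (Fin n) (Fin n) F) *ᵥ z with hz1
  have hhP1 : (h : Matrix (Fin n) (Fin n) F) *ᵥ P1 = ω • P1 := by
    rw [hP1, hPdef, hwP, hhP, finRotate_val]
    simp [ht, Nat.mod_eq_of_lt (show 1 < 2 * m by omega), show 1 < m by omega]
  have hhz1 : (h : Matrix (Fin n) (Fin n) F) *ᵥ z1 = z1 := by rw [hz1, hzdef, hwD, torus_dvec_one hhD]
  refine finish hF hb hn h32 (by omega) hR hwP hwD hM hwM (fun c => ?_) (fun h => absurd h (by omega))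
  have hall : c ∈ scalA hf M z1 h1.1 := by
    refine addSubgroup_eq_top hF _ (χ := ω ^ q) (c := 1) ?_ one_ne_zero (fun x hx => ?_) ?_ c
    · show InA hf M P1 ((1 : F) • z1); rw [one_smul]; exact h1
    · have h2 := inA_conj hf hiso hhM (hx : InA hf M P1 (x • z1))
      rw [Matrix.mulVec_smul, hhz1, hhP1] at h2
      have h3 := inA_smul_centre hf ω hω h2
      rw [smul_smul, frobQ_apply] at h3
      exact h3
    · rw [(Nat.Coprime.orderOf_pow ?_), hoω]
      · have := Cfsg.Agent.H3.two_le_q hF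
        have : q * 2 ≤ q ^ 2 := by rw [pow_two]; exact Nat.mul_le_mul_left _ this
        omega
      · rw [hoω]
        have hq := Cfsg.Agent.H3.two_le_q hF
        refine Nat.Coprime.symm (Nat.coprime_of_dvd fun k hk hk1 hk2 => ?_)
        have h3 := Nat.dvd_sub (dvd_pow hk1 two_ne_zero) hk2
        have : 1 ≤ q ^ 2 := Nat.one_le_pow _ _ (by omega)
        rw [show q ^ 2 - (q ^ 2 - 1) = 1 by omega] at h3
        exact hk.not_dvd_one h3
  have h4 := inA_conj hf hiso (M.inv_mem hwM) (hall : InA hf M P1 (c • z1))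
  rw [Matrix.mulVec_smul, hP1, hz1, Matrix.mulVec_mulVec, Matrix.mulVec_mulVec, ← Units.val_mul, inv_mul_cancel,
    Units.val_one, Matrix.one_mulVec, Matrix.one_mulVec] at h4
  exact h4

/-- Completion for the twisted pairs. -/
theorem twisted (hn : 2 ≤ n) (h32 : ¬(n = 3 ∧ q = 2)) (hm : 0 < m) {R : Matrix (Fin r) (Fin r) F}
    {a : Fin r → F} (hR : GoodRot q m R a) {w h g : GL (Fin n) F} (hw : w ∈ SUn n F q) (hh : h ∈ SUn n F q)
    (hwP : ∀ i, (w : Matrix (Fin n) (Fin n) F) *ᵥ b (Sum.inl i) = b (Sum.inl (finRotate (2 * m) i)))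
    (hwD : ∀ a, (w : Matrix (Fin n) (Fin n) F) *ᵥ dvec b a = dvec b (R *ᵥ a))
    (hg : g ∈ Subgroup.zpowers h) (hwh : g * w * h = w) {l s l' s' : F} (hl' : l' ≠ 0)
    (hgP : ((g⁻¹ : GL (Fin n) F) : Matrix (Fin n) (Fin n) F) *ᵥ b (Sum.inl ⟨0, by omega⟩) =
      l • b (Sum.inl ⟨0, by omega⟩))
    (hgz : ((g⁻¹ : GL (Fin n) F) : Matrix (Fin n) (Fin n) F) *ᵥ dvec b a = s • dvec b a)
    (hhP : (h : Matrix (Fin n) (Fin n) F) *ᵥ b (Sum.inl ⟨0, by omega⟩) = l' • b (Sum.inl ⟨0, by omega⟩))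
    (hhz : (h : Matrix (Fin n) (Fin n) F) *ᵥ dvec b a = s' • dvec b a)
    (hne : l ^ q * s ≠ 1) (hord : q ≤ orderOf (l' ^ q * s'))
    (hD : m = 1 → R *ᵥ a ∈ Submodule.span F {a} ∨ ∑ k, a k * (R *ᵥ a) k ^ q = 0) :
    ∃ A ∈ SUn n F q, ∃ B ∈ SUn n F q, SUn n F q ≤ Subgroup.closure {A, B} := by
  have hf := isUnitary_std (n := n) hF
  set P := b (Sum.inl (⟨0, by omega⟩ : Fin (2 * m))) with hPdef
  set z := dvec b a with hzdef
  have hP : Cfsg.hermForm n F q P P = 0 := by
    rw [hPdef, form_inl_inl hF hb, if_neg]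
    simp [Nat.mod_eq_of_lt (show m < 2 * m by omega)]; omega
  have hzP : Cfsg.hermForm n F q z P = 0 := (eq_zero_comm hf).mp (form_inl_dvec hF hb _ a)
  obtain ⟨γ, hγ, hγ0⟩ := exists_gamma hF hb a
  set x := eich hf hP hzP γ with hx
  have hxS : x ∈ SUn n F q := ⟨fun u v => eich_iso hf hP hzP hγ u v, eich_mem_sl hf _ _ _⟩
  refine ⟨h, hh, x * w, Subgroup.mul_mem _ hxS hw, ?_⟩
  set M := Subgroup.closure ({h, x * w} : Set (GL (Fin n) F))
  have hM : M ≤ SUn n F q := by
    rw [Subgroup.closure_le]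
    rintro y (rfl | rfl)
    exacts [hh, Subgroup.mul_mem _ hxS hw]
  have hhM : h ∈ M := Subgroup.subset_closure (Or.inl rfl)
  have hgM : g ∈ M := Subgroup.zpowers_le.mpr hhM hg
  have hbM : x * w ∈ M := Subgroup.subset_closure (Or.inr rfl)
  have hiso : IsoOn (Cfsg.hermForm n F q) M := fun y hy => (hM hy).1
  obtain ⟨h0, h0X⟩ := twist_scal hf hiso hhM hgM hbM hwh hP hzP hγ hx hgP hgz
  have hc0 : (1 : F) - frobQ hF l * s ≠ 0 := by
    rw [frobQ_apply]; exact sub_ne_zero.mpr (Ne.symm hne)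
  have hclA : ∀ c : F, InA hf M P (c • z) → InA hf M P ((l' ^ q * s' * c) • z) := by
    intro c hc
    have h2 := inA_conj hf hiso hhM hc
    rw [Matrix.mulVec_smul, hhP, hhz] at h2
    have h3 := inA_smul_centre hf l' hl' h2
    rw [smul_smul, smul_smul, frobQ_apply] at h3
    rwa [mul_right_comm]
  have hst : ∀ c : F, InA hf M P (c • z) :=
    addSubgroup_eq_top hF (scalA hf M z hP) h0 hc0 hclA hord
  have hxM : x ∈ M := by
    by_cases hN : Cfsg.hermForm n F q z z = 0
    · have h1 : ∀ c : F, InX hf M P (c • z) := by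
        refine addSubgroup_eq_top hF (scalX hf M hP hN) (h0X hN (hγ0 (by rwa [← form_dvec hF hb]))) hc0
          (fun c hc => ?_) hord
        have h2 := inX_conj hf hiso hhM (hc : InX hf M P (c • z))
        rw [Matrix.mulVec_smul, hhP, hhz] at h2
        have h3 := inX_smul_centre hf l' hl' h2
        rw [smul_smul, smul_smul, frobQ_apply] at h3
        show InX hf M P _
        rwa [mul_right_comm]
      obtain ⟨-, _, hze, hmem⟩ := h1 1
      convert hmem using 1
      exact eich_congr hf _ _ _ _ rfl (one_smul F z).symm (hγ0 (by rwa [← form_dvec hF hb]))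
    · have h1 := hst 1
      rw [one_smul] at h1
      exact inA_exact hf h1 (centre_of_pair hf h1 hst hN) hγ hP hzP
  have hwM : w ∈ M := (Subgroup.mul_mem_cancel_left M hxM).mp hbM
  refine finish hF hb hn h32 hm hR hwP hwD hM hwM hst ?_
  intro h1 c
  rcases hD h1 with hmem | horth
  · obtain ⟨k, hk⟩ := Submodule.mem_span_singleton.mp hmem
    have e : dvec b (R *ᵥ a) = k • z := by
      rw [← hk]; simp [dvec, hzdef, Finset.smul_sum, smul_smul]
    rw [e, smul_smul]; exact hst _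
  · obtain ⟨H, hPj, hZj⟩ := frame_of_rot hF hb hm hwP hwD a hR.2.2.1
    rw [← hPdef, ← hzdef] at H
    rw [← hzdef] at hZj
    have hN : Cfsg.hermForm n F q z z ≠ 0 := by
      rcases hR.2.2.2.2 with h | ⟨h, -⟩
      · rwa [hzdef, form_dvec hF hb]
      · omega
    have hc1 : ∀ i, orb w P i ∈ centres hf M :=
      Frame.full hf H hiso hwM hst (fun h => absurd h (by omega)) (Or.inl hN)
    obtain ⟨d, hd0, hd⟩ := exists_skew hf
    obtain ⟨hq0, hT0⟩ := hc1 0
    obtain ⟨hq1, hT1⟩ := hc1 1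
    have hd' : frobQ hF (-d⁻¹) = - -d⁻¹ := by rw [map_neg, map_inv₀, hd, inv_neg]
    have h2 := inA_conj hf hiso (M.mul_mem (hT1 _ hd') (hT0 d hd))
      (Frame.transZ hf H hiso hwM hst 1 (c / frobQ hF d))
    subst h1
    have hPP : Cfsg.hermForm n F q P (orb w P 1) = 1 := by
      conv_lhs => arg 4; rw [← orb_zero w P]
      exact H.pp_one (by omega) (by omega) (by omega)
    have hPP' : Cfsg.hermForm n F q (orb w P 1) P = 1 := by
      rw [hf.herm, hPP, map_one]
    have hPz : Cfsg.hermForm n F q (orb w z 1) P = 0 := by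
      have := Frame.zp hf H 0 1; rwa [orb_zero] at this
    simp only [Units.val_mul, ← Matrix.mulVec_mulVec, orb_zero, uT_mulVec, Matrix.mulVec_smul, hPP', hPz,
      hf.add_left, hf.smul_left, hq1, hPP, Frame.zp hf H 1 1, mul_one, mul_zero, zero_smul, add_zero, zero_add]
      at h2
    have e1 : orb w P 1 + d • P + (-d⁻¹ * d) • orb w P 1 = d • P := by
      rw [neg_mul, inv_mul_cancel₀ hd0]; module
    rw [e1] at h2
    have h3 := inA_smul_centre hf d hd0 h2
    have hz1 : orb w z 1 = dvec b (R *ᵥ a) := by rw [hZj, pow_one]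
    rw [smul_smul, mul_div_cancel₀ _ (by simpa using hd0), hz1] at h3
    exact h3

end Cfsg.Agent.H98.TG
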