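import Cfsg.Agent.H98.HermSub

/-!
# Root elements of unitary groups

Products and conjugates of Eichler elements, and closure properties of the set of root elements contained
in a subgroup of the isometry group.
-/

set_option autoImplicit false
set_option linter.unusedSectionVars false

namespace Cfsg.Agent.H98.TG

open scoped Matrix
open Cfsg.Agent.H98.Herm

variable {ι : Type} [Fintype ι] [DecidableEq ι] {F : Type*} [Field F] [Finite F]
variable {σ : F ≃+* F} {f : (ι → F) → (ι → F) → F} (hf : Cfsg.Geo.IsUnitaryForm σ f)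

include hf

/-- Eichler elements depend only on their parameters. -/
theorem eich_congr {e e' z z' : ι → F} {γ γ' : F} (he : f e e = 0) (hze : f z e = 0) (he' : f e' e' = 0)
    (hze' : f z' e' = 0) (h1 : e = e') (h2 : z = z') (h3 : γ = γ') :
    eich hf he hze γ = eich hf he' hze' γ' := by
  subst h1; subst h2; subst h3; rfl

/-- The product of two root elements with the same centre. -/
theorem eich_mul {e z z' : ι → F} (he : f e e = 0) (hze : f z e = 0) (hze' : f z' e = 0) (γ γ' : F)
    (h : f (z + z') e = 0) :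
    eich hf he hze γ * eich hf he hze' γ' = eich hf he h (γ + γ' - f z' z) := by
  refine gl_ext fun y => ?_
  simp only [Units.val_mul, ← Matrix.mulVec_mulVec, eich_mulVec, hf.add_left, add_right hf, hf.smul_left,
    sub_left hf, he, hze', (eq_zero_comm hf).mp hze, mul_zero, add_zero, sub_zero]
  module

/-- Validity of the parameter of a product. -/
theorem valid_mul {z z' : ι → F} {γ γ' : F} (h : γ + σ γ + f z z = 0) (h' : γ' + σ γ' + f z' z' = 0) :
    (γ + γ' - f z' z) + σ (γ + γ' - f z' z) + f (z + z') (z + z') = 0 := by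
  simp only [map_add, map_sub, sigma_apply hf, hf.add_left, add_right hf]
  linear_combination h + h'

/-- The root element with vector zero is a transvection. -/
theorem eich_zero {e : ι → F} (he : f e e = 0) (h0 : f (0 : ι → F) e = 0) (γ : F) :
    eich hf he h0 γ = uT hf he γ := by
  refine gl_ext fun y => ?_
  simp only [eich_mulVec, uT_mulVec, zero_right hf]
  module

theorem eich_one {e : ι → F} (he : f e e = 0) (h0 : f (0 : ι → F) e = 0) : eich hf he h0 0 = 1 := by
  refine gl_ext fun y => ?_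
  simp only [eich_mulVec, zero_right hf, Units.val_one, Matrix.one_mulVec]
  module

/-- The inverse of a root element. -/
theorem eich_inv {e z : ι → F} (he : f e e = 0) (hze : f z e = 0) (hze' : f (-z) e = 0) {γ : F}
    (hγ : γ + σ γ + f z z = 0) : (eich hf he hze γ)⁻¹ = eich hf he hze' (σ γ) := by
  refine inv_eq_of_mul_eq_one_right ?_
  rw [eich_mul hf he hze hze' γ (σ γ) (by rw [add_neg_cancel, zero_left hf])]
  refine (eich_congr hf _ _ he (zero_left hf e) rfl (add_neg_cancel z) ?_).trans (eich_one hf he _)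
  rw [neg_left hf]; linear_combination hγ

/-- Conjugation by an isometry. -/
theorem eich_conj {g : GL ι F} (hg : ∀ a b, f ((g : Matrix ι ι F) *ᵥ a) ((g : Matrix ι ι F) *ᵥ b) = f a b)
    {e z : ι → F} (he : f e e = 0) (hze : f z e = 0) (γ : F)
    (he' : f ((g : Matrix ι ι F) *ᵥ e) ((g : Matrix ι ι F) *ᵥ e) = 0)
    (hze' : f ((g : Matrix ι ι F) *ᵥ z) ((g : Matrix ι ι F) *ᵥ e) = 0) :
    g * eich hf he hze γ * g⁻¹ = eich hf he' hze' γ := by
  refine gl_ext fun y => ?_
  simp only [Units.val_mul, ← Matrix.mulVec_mulVec, eich_mulVec, Matrix.mulVec_add, Matrix.mulVec_sub,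
    Matrix.mulVec_smul, gl_mulVec_inv]
  rw [← hg (((g⁻¹ : GL ι F) : Matrix ι ι F) *ᵥ y) e, ← hg (((g⁻¹ : GL ι F) : Matrix ι ι F) *ᵥ y) z,
    gl_mulVec_inv]

/-- Scaling the centre. -/
theorem eich_smul {e z : ι → F} (l : F) (he : f e e = 0) (hze : f (σ l • z) e = 0)
    (he' : f (l • e) (l • e) = 0) (hze' : f z (l • e) = 0) (γ : F) :
    eich hf he' hze' γ = eich hf he hze (l * σ l * γ) := by
  refine gl_ext fun y => ?_
  simp only [eich_mulVec, smul_right hf, hf.involutive]
  module

/-- Shifting the vector along the centre. -/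
theorem eich_shift {e z : ι → F} (β : F) (he : f e e = 0) (hze : f z e = 0) (hze' : f (z + β • e) e = 0)
    (γ : F) : eich hf he hze' γ = eich hf he hze (γ + β - σ β) := by
  refine gl_ext fun y => ?_
  simp only [eich_mulVec, add_right hf, smul_right hf]
  module

/-- Root elements spanned by two orthogonal isotropic vectors are symmetrical. -/
theorem eich_symm {a b : ι → F} (ha : f a a = 0) (hb : f b b = 0) (hba : f b a = 0) (hab : f (-a) b = 0) :
    eich hf ha hba 0 = eich hf hb hab 0 := by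
  refine gl_ext fun y => ?_
  simp only [eich_mulVec, neg_right hf]
  module

/-- Vectors of root elements with centre `e` in `M`. -/
def InA (M : Subgroup (GL ι F)) (e z : ι → F) : Prop :=
  ∃ (he : f e e = 0) (hze : f z e = 0) (γ : F), γ + σ γ + f z z = 0 ∧ eich hf he hze γ ∈ M

/-- Isotropic vectors of root elements with zero parameter in `M`. -/
def InX (M : Subgroup (GL ι F)) (e z : ι → F) : Prop :=
  f z z = 0 ∧ ∃ (he : f e e = 0) (hze : f z e = 0), eich hf he hze 0 ∈ M

variable {M : Subgroup (GL ι F)}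

theorem InX.toInA {e z : ι → F} (h : InX hf M e z) : InA hf M e z := by
  obtain ⟨hzz, he, hze, hmem⟩ := h
  exact ⟨he, hze, 0, by rw [map_zero, hzz]; simp, hmem⟩

theorem inA_zero {e : ι → F} (he : f e e = 0) : InA hf M e 0 :=
  ⟨he, zero_left hf e, 0, by rw [map_zero, zero_left hf]; simp, by rw [eich_one hf he]; exact M.one_mem⟩

theorem inA_add {e z z' : ι → F} (h : InA hf M e z) (h' : InA hf M e z') : InA hf M e (z + z') := by
  obtain ⟨he, hze, γ, hγ, hmem⟩ := h
  obtain ⟨_, hze', γ', hγ', hmem'⟩ := h'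
  have h0 : f (z + z') e = 0 := by rw [hf.add_left, hze, hze', add_zero]
  refine ⟨he, h0, _, valid_mul hf hγ hγ', ?_⟩
  rw [← eich_mul hf he hze hze' γ γ' h0]
  exact M.mul_mem hmem hmem'

theorem inA_neg {e z : ι → F} (h : InA hf M e z) : InA hf M e (-z) := by
  obtain ⟨he, hze, γ, hγ, hmem⟩ := h
  have h0 : f (-z) e = 0 := by rw [neg_left hf, hze, neg_zero]
  refine ⟨he, h0, σ γ, ?_, ?_⟩
  · rw [hf.involutive, neg_left hf, neg_right hf, neg_neg]; linear_combination hγ
  · rw [← eich_inv hf he hze h0 hγ]; exact M.inv_mem hmem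

theorem inA_sub {e z z' : ι → F} (h : InA hf M e z) (h' : InA hf M e z') : InA hf M e (z - z') := by
  rw [sub_eq_add_neg]; exact inA_add hf h (inA_neg hf h')

theorem inA_shift {e z : ι → F} (β : F) (h : InA hf M e z) : InA hf M e (z + β • e) := by
  obtain ⟨he, hze, γ, hγ, hmem⟩ := h
  have h0 : f (z + β • e) e = 0 := by rw [hf.add_left, hf.smul_left, hze, he, mul_zero, add_zero]
  refine ⟨he, h0, γ - β + σ β, ?_, ?_⟩
  · simp only [map_add, map_sub, hf.involutive, hf.add_left, add_right hf, hf.smul_left, smul_right hf, hze,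
      he, (eq_zero_comm hf).mp hze]
    linear_combination hγ
  · rw [eich_shift hf β he hze h0, show γ - β + σ β + β - σ β = γ by ring]; exact hmem

theorem inA_self {e : ι → F} (he : f e e = 0) (β : F) : InA hf M e (β • e) := by
  have := inA_shift hf β (inA_zero hf (M := M) he)
  rwa [zero_add] at this

/-- A vector may be decomposed over a family. -/
theorem inA_sum {κ : Type*} {e : ι → F} (he : f e e = 0) (s : Finset κ) (v : κ → ι → F)
    (h : ∀ i ∈ s, InA hf M e (v i)) : InA hf M e (∑ i ∈ s, v i) :=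
  Finset.sum_induction v (fun z => InA hf M e z) (fun _ _ => inA_add hf) (inA_zero hf he) h

theorem inA_smul_centre {e z : ι → F} (l : F) (hl : l ≠ 0) (h : InA hf M (l • e) z) :
    InA hf M e (σ l • z) := by
  obtain ⟨he', hze', γ, hγ, hmem⟩ := h
  have he : f e e = 0 := by
    simpa [hf.smul_left, smul_right hf, hl] using he'
  have hze : f (σ l • z) e = 0 := by rw [hf.smul_left]; rw [smul_right hf] at hze'; exact hze'
  refine ⟨he, hze, l * σ l * γ, ?_, ?_⟩
  · simp only [map_mul, hf.involutive, hf.smul_left, smul_right hf]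
    linear_combination (l * σ l) * hγ
  · rw [← eich_smul hf l he hze he' hze']; exact hmem

theorem inX_smul_centre {e z : ι → F} (l : F) (hl : l ≠ 0) (h : InX hf M (l • e) z) :
    InX hf M e (σ l • z) := by
  obtain ⟨hzz, he', hze', hmem⟩ := h
  have he : f e e = 0 := by
    simpa [hf.smul_left, smul_right hf, hl] using he'
  have hze : f (σ l • z) e = 0 := by rw [hf.smul_left]; rw [smul_right hf] at hze'; exact hze'
  refine ⟨by rw [hf.smul_left, smul_right hf, hzz, mul_zero, mul_zero], he, hze, ?_⟩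
  rw [eich_smul hf l he hze he' hze', mul_zero] at hmem
  exact hmem

theorem inX_symm {a b : ι → F} (ha : f a a = 0) (h : InX hf M a b) : InX hf M b (-a) := by
  obtain ⟨hbb, _, hba, hmem⟩ := h
  have hab : f (-a) b = 0 := by rw [neg_left hf, (eq_zero_comm hf).mp hba, neg_zero]
  refine ⟨by rw [neg_left hf, neg_right hf, ha]; simp, hbb, hab, ?_⟩
  rwa [← eich_symm hf ha hbb hba hab]

/-- The elements of `M` are isometries. -/
abbrev IsoOn (f : (ι → F) → (ι → F) → F) (M : Subgroup (GL ι F)) : Prop :=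
  ∀ g ∈ M, ∀ a b, f ((g : Matrix ι ι F) *ᵥ a) ((g : Matrix ι ι F) *ᵥ b) = f a b

theorem inA_conj (hM : IsoOn f M) {g : GL ι F} (hg : g ∈ M) {e z : ι → F} (h : InA hf M e z) :
    InA hf M ((g : Matrix ι ι F) *ᵥ e) ((g : Matrix ι ι F) *ᵥ z) := by
  obtain ⟨he, hze, γ, hγ, hmem⟩ := h
  refine ⟨by rw [hM g hg, he], by rw [hM g hg, hze], γ, by rw [hM g hg, hγ], ?_⟩
  rw [← eich_conj hf (hM g hg) he hze γ]
  exact M.mul_mem (M.mul_mem hg hmem) (M.inv_mem hg)

theorem inX_conj (hM : IsoOn f M) {g : GL ι F} (hg : g ∈ M) {e z : ι → F} (h : InX hf M e z) :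
    InX hf M ((g : Matrix ι ι F) *ᵥ e) ((g : Matrix ι ι F) *ᵥ z) := by
  obtain ⟨hzz, he, hze, hmem⟩ := h
  refine ⟨by rw [hM g hg, hzz], by rw [hM g hg, he], by rw [hM g hg, hze], ?_⟩
  rw [← eich_conj hf (hM g hg) he hze 0]
  exact M.mul_mem (M.mul_mem hg hmem) (M.inv_mem hg)

/-- With the root transvections, every admissible parameter occurs. -/
theorem inA_exact {e z : ι → F} (h : InA hf M e z) (hc : e ∈ centres hf M) {γ : F}
    (hγ : γ + σ γ + f z z = 0) (he : f e e = 0) (hze : f z e = 0) : eich hf he hze γ ∈ M := by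
  obtain ⟨_, _, γ₀, hγ₀, hmem⟩ := h
  obtain ⟨_, hd⟩ := hc
  have h1 := M.mul_mem (hd (γ - γ₀) (by rw [map_sub]; linear_combination hγ - hγ₀)) hmem
  rw [← eich_zero hf he (zero_left hf e), eich_mul hf he (zero_left hf e) hze _ _
    (by rw [zero_add, hze])] at h1
  convert h1 using 1
  refine eich_congr hf _ _ _ _ rfl (zero_add z).symm ?_
  rw [zero_right hf]; ring

/-- Commutators with a root element. -/
theorem inX_commut (hM : IsoOn f M) {a b u z : ι → F} (hu : InA hf M b u) (hz : InA hf M a z)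
    (hab : f a b = 0) (hbz : f b z = 0) (hua : f u a = 0) : InX hf M b (f u z • a) := by
  obtain ⟨hb, hub, γ, hγ, hU⟩ := hu
  obtain ⟨ha, hza, δ, -, hP⟩ := hz
  set P := eich hf ha hza δ with hPd
  have hPb : (P : Matrix ι ι F) *ᵥ b = b := by
    rw [hPd, eich_mulVec, hbz, (eq_zero_comm hf).mp hab, zero_smul, zero_smul, sub_zero, add_zero]
  have hPu : (P : Matrix ι ι F) *ᵥ u = u - f u z • a := by
    rw [hPd, eich_mulVec, hua, zero_smul, add_zero]
  have hub' : f (u - f u z • a) b = 0 := by rw [sub_left hf, hf.smul_left, hub, hab, mul_zero, sub_zero]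
  have hub'' : f (-(u - f u z • a)) b = 0 := by rw [neg_left hf, hub', neg_zero]
  have hγ' : γ + σ γ + f (u - f u z • a) (u - f u z • a) = 0 := by
    simp only [sub_left hf, sub_right hf, hf.smul_left, smul_right hf, hua, ha, (eq_zero_comm hf).mp hua]
    linear_combination hγ
  have hc : f (f u z • a) b = 0 := by rw [hf.smul_left, hab, mul_zero]
  refine ⟨by rw [hf.smul_left, smul_right hf, ha, mul_zero, mul_zero], hb, hc, ?_⟩
  have hconj : P * eich hf hb hub γ * P⁻¹ = eich hf hb hub' γ := by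
    rw [eich_conj hf (hM P hP) hb hub γ (by rw [hM P hP, hb]) (by rw [hM P hP, hub])]
    exact eich_congr hf _ _ _ _ hPb hPu rfl
  have h1 := M.mul_mem hU (M.inv_mem (M.mul_mem (M.mul_mem hP hU) (M.inv_mem hP)))
  rw [hconj, eich_inv hf hb hub' hub'' hγ', eich_mul hf hb hub hub'' γ (σ γ)
    (by rw [hf.add_left, hub, hub'', add_zero])] at h1
  convert h1 using 1
  refine eich_congr hf _ _ _ _ rfl (by abel) ?_
  rw [neg_left hf, sub_left hf, hf.smul_left, (eq_zero_comm hf).mp hua]
  linear_combination -hγ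

/-- Two non-orthogonal families of vectors give the root transvections. -/
theorem centre_of_pair {e z z' : ι → F} (hz : InA hf M e z) (hz' : ∀ c : F, InA hf M e (c • z'))
    (hne : f z z' ≠ 0) : e ∈ centres hf M := by
  obtain ⟨he, hze, γ, hγ, hA⟩ := hz
  refine ⟨he, fun d hd => ?_⟩
  obtain ⟨x, hx⟩ : ∃ x, x - σ x ≠ 0 := by
    by_contra h
    push Not at h
    exact hf.ne_refl (RingEquiv.ext fun x => (sub_eq_zero.mp (h x)).symm)
  have hw : d * x / (x - σ x) - σ (d * x / (x - σ x)) = d := by
    rw [map_div₀, map_mul, map_sub, hf.involutive, hd, ← neg_sub x (σ x), div_neg, neg_mul, neg_div, neg_neg,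
      ← sub_div, div_eq_iff hx]
    ring
  set w := d * x / (x - σ x)
  obtain ⟨_, hz'e, γ', hγ', hB⟩ := hz' (σ (w / f z z'))
  set y := σ (w / f z z') • z' with hy
  have hzy : f z y = w := by rw [hy, smul_right hf, hf.involutive, div_mul_cancel₀ _ hne]
  have hyz : f y z = σ w := by rw [← sigma_apply hf z y, hzy]
  have h1 : f (z + y) e = 0 := by rw [hf.add_left, hze, hz'e, add_zero]
  have h2 := M.mul_mem hA hB
  rw [eich_mul hf he hze hz'e γ γ' h1] at h2
  have h3 := M.mul_mem hB hA
  rw [eich_mul hf he hz'e hze γ' γ (by rw [add_comm]; exact h1)] at h3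
  have h4 : uT hf he d * eich hf he (show f (y + z) e = 0 by rw [add_comm]; exact h1) (γ' + γ - f z y) =
      eich hf he h1 (γ + γ' - f y z) := by
    rw [← eich_zero hf he (zero_left hf e), eich_mul hf he (zero_left hf e) _ _ _
      (by rw [zero_add, add_comm]; exact h1)]
    refine eich_congr hf _ _ _ _ rfl (by abel) ?_
    rw [zero_right hf, hzy, hyz]; linear_combination -hw
  rw [eq_mul_inv_of_mul_eq h4]
  exact M.mul_mem h2 (M.inv_mem h3)

/-- Moving a line along a root transvection. -/
theorem inA_flip (hM : IsoOn f M) {b u p : ι → F} (hu : ∀ c : F, InA hf M b (c • u)) (hp : p ∈ centres hf M)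
    (hpb : f p b = 0) (hne : f u p ≠ 0) (c : F) : InA hf M b (c • p) := by
  obtain ⟨d, hd0, hd⟩ := exists_skew hf
  obtain ⟨hpp, hT⟩ := hp
  have h1 := inA_conj hf hM (hT d hd) (hu (c / (d * f u p)))
  rw [uT_mulVec, uT_mulVec, (eq_zero_comm hf).mp hpb, mul_zero, zero_smul, add_zero, hf.smul_left] at h1
  have h2 := inA_sub hf h1 (hu (c / (d * f u p)))
  rwa [add_sub_cancel_left, mul_left_comm, div_mul_cancel₀ _ (mul_ne_zero hd0 hne)] at h2

/-- Moving a line along a root element. -/
theorem inA_move (hM : IsoOn f M) {e g p d : ι → F} (hd : InA hf M p d) (hg : ∀ c : F, InA hf M e (c • g))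
    (hp : ∀ c : F, InA hf M e (c • p)) (hep : f e p = 0) (hed : f e d = 0) (hgp : f g p = 1)
    (hgd : f g d = 0) (c : F) : InA hf M e (c • d) := by
  obtain ⟨hpp, hdp, γ, -, hR⟩ := hd
  have h1 := inA_conj hf hM hR (hg c)
  rw [eich_mulVec, eich_mulVec, hep, hed, zero_smul, zero_smul, sub_zero, add_zero, hf.smul_left,
    hf.smul_left, hgp, hgd] at h1
  have h2 := inA_sub hf (inA_sub hf h1 (hg c)) (hp (c * γ))
  convert h2 using 1
  module

end Cfsg.Agent.H98.TG
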